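import Cfsg.Agent.ThC.Main
import Cfsg.Agent.Mult.Co2

/-! The Levi data `TA` for the types `B`, `C`, `D`. -/

set_option autoImplicit false

namespace Cfsg.Agent.ThC

open Matrix Chev Cfsg.Lie Mult Finset

attribute [-simp] zsmul_eq_mul
attribute [local instance 100] LieRing.ofAssociativeRing

section
variable {D : ChevalleyDatum} [Good D] {l : ℕ} {m n : ℤ} (C : Co D l m n)

/-- A functional in simple root coordinates. -/
def pb (v : Fin l → ℤ) : Sm D → ℤ := fun i => v ⬝ᵥ C.ρ (sm i)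

/-- The first `s` signs can be changed. -/
def Fl (s : ℕ) : Prop := ∃ w : WG D, ∀ (r : Rt D) j, C.ρ (w • r) j = if j.val < s then -C.ρ r j else C.ρ r j

/-- Cocharacters. -/
def Cc (v : Fin l → ℤ) : Prop := ∃ y : Sm D → ℤ, ∀ r, ∑ i, y i * car i r = v ⬝ᵥ C.ρ r

theorem Cc.κ (r : Rt D) : Cc C (C.κ r) := ⟨cov r, fun s => C.A_eq r s⟩

theorem Cc.add {u v : Fin l → ℤ} : Cc C u → Cc C v → Cc C (u + v) := fun ⟨y, h⟩ ⟨y', h'⟩ =>
  ⟨y + y', fun r => by simp [add_mul, sum_add_distrib, h, h']⟩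

theorem Cc.sum {v : Fin l → ℕ} {t : ℤ} (h : ∀ a, Cc C (Pi.single a t)) : Cc C fun a => v a * t := by
  choose y hy using h
  refine ⟨∑ a, (v a : ℤ) • y a, fun r => ?_⟩
  simp only [Finset.sum_apply, Pi.smul_apply, smul_eq_mul, sum_mul, mul_assoc]
  rw [sum_comm]
  simp only [← mul_sum, hy, single_dotProduct]
  simp only [dotProduct, mul_assoc]

theorem Cc.two (hl : 2 ≤ l) (a : Fin l) : Cc C (Pi.single a 2) := by
  obtain ⟨b, hb⟩ := Fintype.exists_ne_of_one_lt_card (α := Fin l) (by simp; omega) a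
  convert (Cc.κ C (C.σ (.inl a) (.inl b))).add C (Cc.κ C (C.σ (.inl a) (.inr b))) using 1
  rw [C.κσ (a := .inl a) (b := .inl b) hb.symm, C.κσ (a := .inl a) (b := .inr b) hb.symm]
  ext j
  simp [ε0, Pi.single_apply]; split_ifs <;> rfl

theorem eq_ρ {r s : Rt D} (h : C.ρ r = C.ρ s) : r = s :=
  eq_of_A (by rw [C.A_eq, h, ← C.A_eq, A_self]) (by rw [C.A_eq, ← h, ← C.A_eq, A_self])

theorem fl0 : Fl C 0 := ⟨1, by simp⟩

variable (hlin : ∀ r, C.ρ r = ∑ i, rtv r i • C.ρ (sm i))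
include hlin

theorem pb_dot (v : Fin l → ℤ) (r : Rt D) : pb C v ⬝ᵥ rtv r = v ⬝ᵥ C.ρ r := by
  rw [hlin r, dotProduct_sum]
  exact sum_congr rfl fun i _ => by rw [dotProduct_smul, pb, smul_eq_mul, mul_comm]

theorem ρ_refl (β r : Rt D) : C.ρ (rW β • r) = C.ρ r - (C.κ β ⬝ᵥ C.ρ r) • C.ρ β := by
  rw [← C.A_eq, hlin (rW β • r), hlin r, hlin β, rW_smul, rtv_refl]
  simp [sub_smul, smul_sum, mul_smul]

theorem fl1 (h : m * n = 2) {s : ℕ} (hs : s < l) : Fl C s → Fl C (s + 1) := fun ⟨w, hw⟩ =>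
  ⟨rW (C.τ (.inl ⟨s, hs⟩)) * w, fun r j => by
    have hm : m ≠ 0 := by rintro rfl; simp at h
    rw [mul_smul, ρ_refl C hlin, C.ρτ hm, C.κτ hm]
    simp only [ε0, Sum.elim_inl, smul_dotProduct, single_dotProduct, Pi.sub_apply, Pi.smul_apply, hw, Pi.single_apply,
      smul_eq_mul, Fin.ext_iff]
    by_cases e : j = ⟨s, hs⟩
    · subst e; simp; linear_combination (-C.ρ r ⟨s, hs⟩) * h
    · have : j.val ≠ s := fun e' => e (Fin.ext e')
      split_ifs <;> first | omega | simp⟩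

theorem fl2 {s : ℕ} (hs : s + 1 < l) : Fl C s → Fl C (s + 2) := fun ⟨w, hw⟩ =>
  ⟨rW (C.σ (.inl ⟨s, by omega⟩) (.inl ⟨s + 1, hs⟩)) * rW (C.σ (.inl ⟨s, by omega⟩) (.inr ⟨s + 1, hs⟩)) * w, fun r j => by
    rw [mul_smul, mul_smul, ρ_refl C hlin, ρ_refl C hlin, C.ρσ (by simp [ix0]), C.κσ (by simp [ix0]),
      C.ρσ (by simp [ix0]), C.κσ (by simp [ix0])]
    simp only [ε0, Sum.elim_inl, Sum.elim_inr, add_dotProduct, neg_dotProduct, single_dotProduct, Pi.sub_apply,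
      Pi.add_apply, Pi.neg_apply, Pi.smul_apply, hw, Pi.single_apply, smul_eq_mul, Fin.ext_iff]
    by_cases e : j = ⟨s, by omega⟩
    · subst e; simp
    by_cases e1 : j = ⟨s + 1, hs⟩
    · subst e1; simp
    have : j.val ≠ s := fun e' => e (Fin.ext e')
    have : j.val ≠ s + 1 := fun e' => e1 (Fin.ext e')
    split_ifs <;> first | omega | simp⟩

theorem fl_all (h : m * n = 2) : ∀ s ≤ l, Fl C s
  | 0, _ => fl0 C
  | s + 1, hs => fl1 C hlin h hs (fl_all h s (by omega))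

theorem fl_even : ∀ s, 2 * s ≤ l → Fl C (2 * s)
  | 0, _ => fl0 C
  | s + 1, hs => fl2 C hlin (s := 2 * s) (by omega) (fl_even s (by omega))

/-- The Levi datum on the first `k + 2` coordinates. -/
noncomputable def taCo {k : ℕ} (hk : k + 2 ≤ l) (hl : l ≤ k + 3) (hm : m ≠ 0 → l = k + 2) {t : ℤ}
    (ht : t = 1 ∧ m = 2 ∨ t = 2 ∧ (m = 0 ∨ m = 1)) (hc : ∀ a, Cc C (Pi.single a t)) (hw : Fl C (k + 2))
    (dom : ∀ r, Pos r → 0 ≤ (fun j => if j.val < k + 2 then 1 else 0) ⬝ᵥ C.ρ r) : TA D k where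
  ρ i j := C.σ (.inl (i.castLE hk)) (.inr (j.castLE hk))
  e i := pb C (Pi.single (i.castLE hk) 1)
  ψ := pb C fun j => if j.val < k + 2 then 1 else 0
  y := (Cc.sum C (v := fun j => if j.val = 0 then 2 else if j.val < k + 2 then 1 else 0) hc).choose
  z := pb C fun j => (if j.val = 0 then 2 else if j.val < k + 2 then 1 else 0 : ℕ) * t
  δ := t
  he i j h p := by
    rw [pb_dot C hlin, C.ρσ (by simpa [ix0] using h)]
    simp [ε0, Pi.single_apply, sub_eq_add_neg, eq_comm]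
  hA i j p h1 h2 h3 := by
    rw [C.Aσσ (by simpa [ix0] using h1) (by simpa [ix0] using h3)]
    simp [ε0_dot, h1.symm, h2.symm, h3.symm]
  lev r := by
    rw [pb_dot C hlin]
    refine ⟨fun h => ?_, ?_⟩
    · rcases C.cases r with ⟨a, b, e, rfl⟩ | ⟨e, a, rfl⟩
      · rw [C.ρσ e, dotProduct_add, dot_ε0, dot_ε0] at h
        have e' : (ix0 a).val ≠ ix0 b := fun h => e (Fin.ext h)
        have := (ix0 a).2
        have := (ix0 b).2
        rcases a with a | a <;> rcases b with b | b <;>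
          simp only [sg0, ix0, Sum.elim_inl, Sum.elim_inr, id, Pi.one_apply, Pi.neg_apply] at * <;> split_ifs at h <;>
          try omega
        · exact ⟨⟨a, by omega⟩, ⟨b, by omega⟩, by simpa using e', rfl⟩
        · exact ⟨⟨b, by omega⟩, ⟨a, by omega⟩, by simpa using e'.symm, C.σ_comm (Ne.symm e)⟩
      · rw [C.ρτ e, dotProduct_smul, dot_ε0, if_pos ((ix0 a).2.trans_le (hm e).le)] at h
        rcases sg0_eq a with e' | e' <;> simp [e, e'] at h
    · rintro ⟨i, j, h, rfl⟩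
      rw [C.ρσ (by simpa [ix0] using h), dotProduct_add, dot_ε0, dot_ε0]
      simp [sg0, ix0]
  dom r h := pb_dot C hlin _ r ▸ dom r h
  hz r := by rw [pb_dot C hlin]; exact Exists.choose_spec (Cc.sum C hc) r
  hy r := by
    rw [pb_dot C hlin, pb_dot C hlin, abs_le]
    rcases C.cases r with ⟨a, b, e, rfl⟩ | ⟨e, a, rfl⟩
    · have e' : (ix0 a).val ≠ ix0 b := fun h => e (Fin.ext h)
      simp only [C.ρσ e, dotProduct_add, dot_ε0]
      rcases sg0_eq a with e1 | e1 <;> rcases sg0_eq b with e2 | e2 <;> rcases ht with ⟨rfl, -⟩ | ⟨rfl, -⟩ <;>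
        simp only [e1, e2] <;> split_ifs <;> omega
    · simp only [C.ρτ e, dotProduct_smul, dot_ε0, smul_eq_mul]
      rcases sg0_eq a with e1 | e1 <;> rcases ht with ⟨rfl, rfl⟩ | ⟨rfl, rfl | rfl⟩ <;>
        simp only [e1] <;> split_ifs <;> omega
  hρ i j h := by
    rw [pb_dot C hlin, C.ρσ (by simpa [ix0] using h), dotProduct_add, dot_ε0, dot_ε0]
    simp only [sg0, ix0, Sum.elim_inl, Sum.elim_inr, id, Pi.one_apply, Pi.neg_apply, Fin.val_castLE, i.2, j.2,
      Fin.ext_iff, Fin.val_zero]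
    split_ifs <;> simp <;> ring
  hδ := by rcases ht with ⟨rfl, -⟩ | ⟨rfl, -⟩ <;> simp
  hw := hw.imp fun w hw => ⟨fun r => by
      rw [pb_dot C hlin, pb_dot C hlin, ← dotProduct_neg]
      exact sum_congr rfl fun j _ => by
        have := j.2
        simp only [hw, Pi.neg_apply]; split_ifs <;> first | omega | simp,
    fun i j h => eq_ρ C (funext fun p => by
      rw [hw, C.ρσ (by simpa [ix0] using h), C.ρσ (by simpa [ix0] using h.symm)]
      have := i.2
      have := j.2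
      simp only [ε0, Sum.elim_inl, Sum.elim_inr, Pi.add_apply, Pi.neg_apply, Pi.single_apply, Fin.ext_iff, Fin.val_castLE]
      split_ifs <;> omega)⟩

end

section
variable {l : ℕ} {R B : Type} [Fintype R] [LieRing B] [IsAddTorsionFree B] (M : MD R (Fin l) l B) {m n : ℤ}
  (C : Co M.D l m n) (hC : ∀ r, C.ρ r = M.ρ (M.q.symm r))
include hC

theorem lin_md (r : Rt M.D) : C.ρ r = ∑ i, rtv r i • C.ρ (sm i) := by
  obtain ⟨r, rfl⟩ := M.q.surjective r
  simpa [hC, M.sm_q] using M.ρ_eq r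

theorem dom_md {r : Rt M.D} (h : Pos r) (i : Fin l) : 0 ≤ M.ω i ⬝ᵥ C.ρ r := by
  obtain ⟨r, rfl⟩ := M.q.surjective r
  simpa [hC] using M.pos_q.1 h i

end

theorem half {l : ℕ} {u v w : Fin l → ℤ} (h : 0 ≤ u ⬝ᵥ w) (e : ∀ j, u j = 2 * v j) : 0 ≤ v ⬝ᵥ w := by
  rw [show u = (2 : ℤ) • v from funext e, smul_dotProduct, smul_eq_mul] at h
  omega

/-- Type `B`. -/
noncomputable def taB (k : ℕ) : TA (mdB (l := k + 2) (by omega)).D k :=
  have h := lin_md _ (coB (l := k + 2) (by omega)) fun _ => rfl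
  taCo _ h le_rfl (by omega) (fun _ => rfl) (.inr ⟨rfl, .inr rfl⟩) (Cc.two _ (by omega)) (fl_all _ h rfl _ le_rfl)
    fun r hr => half (dom_md _ (coB (l := k + 2) (by omega)) (fun _ => rfl) hr (Fin.last _)) fun j => by
      have := j.2
      change ps (k + 1) j = _
      rw [ps, if_pos (by omega), if_pos j.2]; rfl

/-- Type `C`. -/
noncomputable def taC (k : ℕ) : TA (mdC (l := k + 2) (by omega)).D k :=
  have h := lin_md _ (coC (l := k + 2) (by omega)) fun _ => rfl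
  taCo _ h le_rfl (by omega) (fun _ => rfl) (.inl ⟨rfl, rfl⟩)
    (fun a => by simpa [Co.κτ, ε0] using Cc.κ (coC (l := k + 2) (by omega)) ((coC (l := k + 2) (by omega)).τ (.inl a))) (fl_all _ h rfl _ le_rfl)
    fun r hr => (dom_md _ (coC (l := k + 2) (by omega)) (fun _ => rfl) hr (Fin.last _)).trans_eq
      (congrArg (· ⬝ᵥ _) (funext fun j => (if_pos rfl).trans (if_pos j.2).symm))

/-- Type `D`. -/
noncomputable def taD {l : ℕ} (h3 : 3 ≤ l) (s : ℕ) (h1 : 2 * s + 2 ≤ l) (h2 : l ≤ 2 * s + 3) : TA (mdD h3).D (2 * s) :=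
  have h := lin_md _ (coD h3) fun _ => rfl
  taCo _ h h1 h2 (fun e => absurd rfl e) (.inr ⟨rfl, .inl rfl⟩) (Cc.two _ (by omega)) (fl_even _ h (s + 1) h1)
    fun r hr => by
      have a1 := dom_md _ (coD h3) (fun _ => rfl) hr ⟨l - 1, by omega⟩
      have a2 := dom_md _ (coD h3) (fun _ => rfl) hr ⟨if l = 2 * s + 2 then l - 1 else l - 2, by split_ifs <;> omega⟩
      refine half ((add_nonneg a1 a2).trans_eq (add_dotProduct _ _ _).symm) fun j => ?_
      have := j.2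
      change ωD _ j + ωD _ j = _
      simp only [ωD, ωC, ps]
      split_ifs <;> omega

end Cfsg.Agent.ThC
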