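import Cfsg.Agent.G2C.Cell

/-! The Gauss decomposition of Ellers and Gordeev with trivial semisimple part: a non-central element of a Chevalley
group is conjugate to an element of `U⁻ U` (`eg`). -/

set_option autoImplicit false

namespace Cfsg.Agent.ThC

open Matrix Chev Cfsg.Lie _root_.Cfsg.Agent.Classical SpC
open scoped MatrixGroups

variable {F : Type*} [Field F] {G : Type*} [Group G] {D : ChevalleyDatum} [Good D]

/-- The support. -/
def supp (w : WG D) : Set (Sm D) := {i | w ∉ WJ {i}ᶜ}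

theorem mem_supp {w : WG D} {i : Sm D} (h : ¬ Pos (w • sm i)) : i ∈ supp w := fun h' =>
  inJ_sm.1 (inJ_of_mem_Inv h' (mem_Inv.2 ⟨pos_sm i, h⟩)) rfl

theorem mem_WJ_supp (w : WG D) : w ∈ WJ (supp w) :=
  mem_WJ_of_Inv fun _ hr j hj => inJ_of_mem_Inv (not_not.1 hj) hr j (by simp)

theorem smul_ne {w : WG D} {i j : Sm D} (hi : i ∈ supp w) (hj : j ∉ supp w) (h : car i (sm j) ≠ 0) :
    w • sm j ≠ sm j := fun e => hi (mem_WJ_of_Inv fun r hr k hk => by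
  obtain rfl : k = i := by simpa using hk
  have h1 := inJ_of_mem_Inv (mem_WJ_supp w) hr
  have h2 := (inJ_smul (mem_WJ_supp w)).2 h1
  obtain ⟨h3, h4⟩ := mem_Inv.1 hr
  have h5 : ∀ s : Rt D, Pos s → InJ (supp w) s → ∀ x ∈ Finset.univ, rtv s x * car j (sm x) ≤ 0 := fun s a b x _ => by
    by_cases e : x = j
    · rw [e, b j hj, zero_mul]
    · exact mul_nonpos_of_nonneg_of_nonpos (a x) (car_nonpos e)
  have h6 := Finset.sum_nonpos (h5 _ (pos_ng_iff.2 h4) (inJ_ng.2 h2))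
  have h7 := Finset.sum_nonpos (h5 _ h3 h1)
  have h8 := A_smul w (sm j) r
  rw [← car_lin, car_ng] at h6
  rw [e, A_sm, A_sm] at h8
  have h9 := (Finset.sum_eq_zero_iff_of_nonpos (h5 _ h3 h1)).1 (by rw [← car_lin] at h7 ⊢; omega) k (Finset.mem_univ _)
  refine (mul_eq_zero.1 h9).resolve_right fun h0 => h ?_
  rw [← A_sm] at h0 ⊢
  exact A_eq_zero_comm h0)

variable [Conn D] {X : Sys D F G} (m : X.Mult)

include m in
theorem xn (r : Rt D) (t : Fˣ) :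
    X.x r t * X.n r 1 = X.x (ng r) (t : F)⁻¹ * X.h r (-t : Fˣ) * X.x r (-(t : F)⁻¹) := by
  have : uSL (t : F) * (uSL 1 * lSL (-1⁻¹) * uSL 1) = lSL (t : F)⁻¹ * dSL (-t) * uSL (-(t : F)⁻¹) := by
    refine Subtype.ext ?_
    change (uSL _).1 * ((uSL 1).1 * (lSL _).1 * (uSL 1).1) =
      (lSL _).1 * !![((-t : Fˣ) : F), 0; 0, ((-t : Fˣ) : F)⁻¹] * (uSL _).1
    simp
  have := congrArg (Ree.sysSL2 m r) this
  simpa only [map_mul, Ree.sysSL2_u, Ree.sysSL2_l, Ree.sysSL2_d, Sys.n] using this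

theorem borel (w : WG D) : ∃ n ∈ X.N, X.Mon n w ∧ ∀ a : Sm D → Fˣ, (∀ i, i ∉ supp w → a i = 1) →
    ∃ u ∈ X.UP, ∃ v ∈ X.UN, ∃ u' ∈ X.UP, u * n = v * m.tor a * u' := by
  classical
  induction w using len_induction with
  | h1 => exact ⟨1, one_mem _, X.mon_one, fun a ha => ⟨1, one_mem _, 1, one_mem _, 1, one_mem _, by
      rw [show a = 1 from funext fun i => ha i (not_not.2 (one_mem _)), map_one]; simp⟩⟩
  | h2 w i hw ih =>
    obtain ⟨n, h0, hn, h⟩ := ih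
    refine ⟨_, mul_mem h0 (X.n_mem_N _ one_ne_zero), hn.mul (X.mon_sm i one_ne_zero), fun a ha => ?_⟩
    obtain ⟨u, hu, v, hv, u', hu', e⟩ := h (Function.update a i 1) fun j hj => by
      by_cases e : j = i
      · simp [e]
      · rw [Function.update_of_ne e]; exact ha j (not_not.2 (mul_mem (not_not.1 hj) (sr_mem_WJ (Ne.symm e))))
    obtain ⟨_, ha', b, hb, rfl⟩ := Sys.exists_mul nilp_Pos {sm i} hu'
    obtain ⟨y, rfl⟩ := Sys.mem_U_singleton.1 (X.U_mono Set.inter_subset_right ha')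
    have h1 := G2C.norm_diff (X := X) nilp_Pos (pos_sm i) ((-a i : Fˣ) - y)
    have h2 := (X.mon_sm i (t := 1) one_ne_zero).inv.conj_mem_U (T := {r | Pos r}) (fun r hr => by
      rw [sr_inv]; exact pos_sr hr.1 hr.2) (Sys.conj_mem_of_norm' h1 hb)
    have h3 := Sys.conj_mem_of_norm (X.H_le_normalizer_U {r | ¬ Pos r} (m.tor_mem_H (Function.update a i 1)))
      (X.x_mem_U (not_pos_ng_sm i) ((-a i : Fˣ) : F)⁻¹)
    refine ⟨u * (n * X.x (sm i) ((-a i : Fˣ) - y) * n⁻¹), mul_mem hu (hn.conj_mem_U (S := {sm i})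
      (by rintro _ rfl; exact hw) (X.x_mem_single _ _)), _, mul_mem hv h3, _,
      mul_mem (X.x_mem_U (pos_sm i) (-((-a i : Fˣ) : F)⁻¹)) h2, ?_⟩
    have e1 := xn m (sm i) (-a i)
    have e2 : X.x (sm i) ((-a i : Fˣ) : F) = X.x (sm i) y * X.x (sm i) ((-a i : Fˣ) - y) := by rw [← X.add]; simp
    rw [e2] at e1
    rw [G2C.step_aux e e1, neg_neg, ← m.tor_single, ← map_mul]
    congr 3
    funext j
    by_cases e : j = i <;> simp [e]

theorem exists_full (c : X.Cover) (hX : X.U Set.univ = ⊤) {g : G} (hg : g ∉ Subgroup.center G) :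
    ∃ z w, X.Cell (z * g * z⁻¹) w ∧ supp w = Set.univ := by
  obtain ⟨z, hz⟩ : ∃ z : G, z * g * z⁻¹ ∉ X.B := by
    by_contra! H
    exact hg (c.normalCore_B hX ▸ H)
  obtain ⟨w, hw⟩ := Sys.exists_cell (X := X) (y := z * g * z⁻¹) (hX ▸ Subgroup.mem_top _)
  obtain ⟨i, hi⟩ := exists_not_pos (w := w) (by rintro rfl; exact hz (c.mem_B_of_cell hw))
  obtain ⟨w, ⟨⟨z, hw⟩, h1⟩, h2⟩ := Set.exists_max_image {w | (∃ z, X.Cell (z * g * z⁻¹) w) ∧ (supp w).Nonempty}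
    (fun w => (supp w).ncard) (Set.toFinite _) ⟨w, ⟨z, hw⟩, i, mem_supp hi⟩
  refine ⟨z, w, hw, by_contra fun h => ?_⟩
  obtain ⟨i, hi, j, hj, hc⟩ := exists_adj h1 (Set.nonempty_compl.2 h)
  have hn := X.n_mem_N (sm j) (one_ne_zero (α := F))
  have hm := X.mon_sm j (one_ne_zero (α := F))
  have p1 : Pos (sr j • w • sm j) :=
    pos_sr (pos_smul_of_not_inJ (mem_WJ_supp w) (pos_sm j) (mt inJ_sm.1 hj)) (smul_ne hi hj hc)
  have c1 := ((hw.step_of_pos hn hm (pos_smul_of_not_inJ (inv_mem (mem_WJ_supp w)) (pos_sm j)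
    (mt inJ_sm.1 hj))).inv.step_of_pos hn hm (by rwa [inv_inv, mul_smul])).inv
  have s1 : insert j (supp w) ⊆ supp (sr j * (sr j * w)⁻¹)⁻¹ := by
    rintro k (rfl | hk)
    · exact mem_supp (by simpa [mul_smul, pos_ng_iff] using p1)
    · intro h'
      have h3 : sr j ∈ WJ ({k}ᶜ : Set (Sm D)) := sr_mem_WJ (by rintro rfl; exact hj hk)
      exact hk (by simpa [mul_mem_cancel_left h3, mul_mem_cancel_right h3] using h')
  have := h2 _ ⟨⟨X.n (sm j) 1 * z, by convert c1 using 1; group⟩, j, s1 (.inl rfl)⟩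
  have h4 := Set.ncard_le_ncard s1
  rw [Set.ncard_insert_of_notMem hj] at h4
  omega

include m in
theorem eg (c : X.Cover) (hX : X.U Set.univ = ⊤) {g : G} (hg : g ∉ Subgroup.center G) :
    ∃ v ∈ X.UN, ∃ u ∈ X.UP, IsConj g (v * u) := by
  obtain ⟨z, w, ⟨b, hb, n', hn', hm', b', hb', e⟩, hs⟩ := exists_full c hX hg
  obtain ⟨n, hn, hm, H⟩ := borel m w
  obtain ⟨h, hh, u, hu, e'⟩ := Sys.mem_B_iff'.1 (mul_mem hb' hb)
  obtain ⟨a, ha⟩ := m.exists_tor (mul_mem (c.inv_mul_mem_H hn hn' hm hm') hh)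
  obtain ⟨u1, h1, v, hv, u2, h2, e2⟩ := H a⁻¹ (by simp [hs])
  refine ⟨v, hv, (m.tor a)⁻¹ * u2 * m.tor a * u * u1⁻¹, mul_mem (mul_mem (Sys.conj_mem_of_norm'
    (X.H_le_normalizer_U _ (m.tor_mem_H a)) h2) hu) (inv_mem h1), isConj_iff.2 ⟨u1 * b⁻¹ * z, ?_⟩⟩
  calc _ = u1 * b⁻¹ * (z * g * z⁻¹) * b * u1⁻¹ := by group
    _ = u1 * n * (n⁻¹ * n' * (b' * b)) * u1⁻¹ := by rw [e]; group
    _ = _ := by rw [e', ← mul_assoc (n⁻¹ * n'), ha, e2, map_inv]; group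

end Cfsg.Agent.ThC
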