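import Cfsg.Agent.ThC.EG
import Cfsg.Agent.Mult.Root2
import Cfsg.Agent.Pres.St

/-! Levi subgroups of type `A` (`TA`) and the homomorphism from `SL_n` onto their derived groups. -/

set_option autoImplicit false

namespace Cfsg.Agent.ThC

open Matrix Chev Cfsg.Lie _root_.Cfsg.Agent.Classical Pres Mult
open scoped MatrixGroups

attribute [-simp] zsmul_eq_mul

variable {F : Type*} [Field F] {G : Type*} [Group G] {D : ChevalleyDatum} [Good D]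

/-- The functional of a vector. -/
def fn (v : Sm D → ℤ) : Fn D := ∑ i, v i • LinearMap.proj i

omit [Good D] in
theorem fn_apply (v x : Sm D → ℤ) : fn v x = v ⬝ᵥ x := by simp [fn, dotProduct]

variable (D) in
/-- A Levi subsystem of type `A` with a real cocharacter that is regular outside it. -/
structure TA (k : ℕ) where
  /-- the roots -/
  ρ : Fin (k + 2) → Fin (k + 2) → Rt D
  /-- coordinates -/
  e : Fin (k + 2) → Sm D → ℤ
  /-- the parabolic -/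
  ψ : Sm D → ℤ
  /-- the cocharacter -/
  y : Sm D → ℤ
  /-- its values -/
  z : Sm D → ℤ
  /-- its value on the first root -/
  δ : ℤ
  he : ∀ i j, i ≠ j → ∀ l, e l ⬝ᵥ rtv (ρ i j) = (if l = i then 1 else 0) - if l = j then 1 else 0
  hA : ∀ i j l, i ≠ j → i ≠ l → j ≠ l → A (ρ i j) (ρ j l) = -1
  lev : ∀ r, ψ ⬝ᵥ rtv r = 0 ↔ ∃ i j, i ≠ j ∧ r = ρ i j
  dom : ∀ r, Pos r → 0 ≤ ψ ⬝ᵥ rtv r
  hz : ∀ r, ∑ i, y i * car i r = z ⬝ᵥ rtv r
  hy : ∀ r, ψ ⬝ᵥ rtv r ≠ 0 → z ⬝ᵥ rtv r ≠ 0 ∧ |z ⬝ᵥ rtv r| ≤ 7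
  hρ : ∀ i j, i ≠ j → z ⬝ᵥ rtv (ρ i j) = (if i = 0 then δ else 0) - if j = 0 then δ else 0
  hδ : δ ≠ 0 ∧ |δ| ≤ 7
  hw : ∃ w : WG D, (∀ r : Rt D, z ⬝ᵥ rtv (w • r) = -(z ⬝ᵥ rtv r)) ∧ ∀ i j, i ≠ j → w • ρ i j = ρ j i

theorem stC4 {ι : Type*} {X : ι → ι → F → G} {o i j k : ι} {a b : F} (h1 : StC X i o j a 1) (h2 : StC X i o k a b)
    (h3 : StC X o j k 1 b) (c1 : Commute (X j k b) (X i o a)) (c2 : Commute (X o k b) (X o j 1))
    (c3 : Commute (X i k (a * b)) (X i o a)) (c4 : Commute (X i k (a * b)) (X o j 1))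
    (c5 : Commute (X i k (a * b)) (X o k b)) : StC X i j k a b := by
  unfold StC at *
  rw [mul_one] at h1
  rw [one_mul] at h3
  rw [← h1]
  generalize X i o a = p, X o j 1 = q, X j k b = s, X o k b = z, X i k (a * b) = w at *
  calc _ = p * q * p⁻¹ * q⁻¹ * (q * s * q⁻¹ * s⁻¹)⁻¹ * q * (s * p * s⁻¹) * q⁻¹ * (q * s * q⁻¹ * s⁻¹) *
        (s * p * s⁻¹)⁻¹ := by group
    _ = p * q * p⁻¹ * (q⁻¹ * z⁻¹ * q) * p * q⁻¹ * z * p⁻¹ := by rw [h3, c1.mul_inv_cancel]; group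
    _ = p * (q * z⁻¹ * (p⁻¹ * (p * z * p⁻¹ * z⁻¹) * p) * q⁻¹) * z * p⁻¹ := by rw [c2.inv_left.symm.inv_mul_cancel]; group
    _ = p * (q * z⁻¹ * q⁻¹ * (q * w * q⁻¹)) * z * p⁻¹ := by rw [h2, c3.symm.inv_mul_cancel]; group
    _ = p * (z⁻¹ * w * z) * p⁻¹ := by rw [c4.symm.mul_inv_cancel, c2.inv_left.symm.mul_inv_cancel]; group
    _ = w := by rw [c5.symm.inv_mul_cancel, c3.symm.mul_inv_cancel]

namespace TA

variable {k : ℕ} (T : TA D k) {i j l p : Fin (k + 2)}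

theorem psi (h : i ≠ j) : T.ψ ⬝ᵥ rtv (T.ρ i j) = 0 := (T.lev _).2 ⟨i, j, h, rfl⟩

theorem eq_of {r : Rt D} (h : i ≠ j) (h0 : T.ψ ⬝ᵥ rtv r = 0)
    (h1 : ∀ l, T.e l ⬝ᵥ rtv r = (if l = i then 1 else 0) - if l = j then 1 else 0) : r = T.ρ i j := by
  obtain ⟨p, q, h2, rfl⟩ := (T.lev r).1 h0
  have h3 := h1 i
  have h4 := h1 j
  rw [T.he _ _ h2] at h3 h4
  grind

theorem ng_eq (h : i ≠ j) : ng (T.ρ i j) = T.ρ j i :=
  T.eq_of h.symm (by rw [rtv_ng, dotProduct_neg, T.psi h, neg_zero]) fun l => by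
    rw [rtv_ng, dotProduct_neg, T.he _ _ h, neg_sub]

theorem ne_ng (h : i ≠ j) (h' : l ≠ p) (h1 : i ≠ p) : T.ρ l p ≠ ng (T.ρ i j) := fun e => by
  have := T.he _ _ h' i
  rw [e, T.ng_eq h, T.he _ _ h.symm] at this
  grind

theorem comb (h : i ≠ j) (h' : l ≠ p) {r : Rt D} {a b : ℤ} (e : rtv r = a • rtv (T.ρ i j) + b • rtv (T.ρ l p)) :
    ∃ u v, u ≠ v ∧ ∀ x, a * ((if x = i then 1 else 0) - if x = j then 1 else 0) +
      b * ((if x = l then 1 else 0) - if x = p then 1 else 0) = (if x = u then 1 else 0) - if x = v then 1 else 0 := by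
  obtain ⟨u, v, h2, rfl⟩ := (T.lev r).1 (by rw [e]; simp [T.psi h, T.psi h'])
  refine ⟨u, v, h2, fun x => ?_⟩
  rw [← T.he _ _ h2, e, ← T.he _ _ h, ← T.he _ _ h']; simp

theorem not_comb (h : i ≠ j) (h' : l ≠ p) (h1 : i ≠ p) (h2 : j ≠ l) (r : Rt D) : ¬ Comb (T.ρ i j) (T.ρ l p) r := by
  rintro ⟨a, b, ha, hb, e⟩
  obtain ⟨u, v, -, h3⟩ := T.comb h h' e
  have h4 := h3 i
  have h5 := h3 l
  grind

theorem commute (X : Sys D F G) (h : i ≠ j) (h' : l ≠ p) (h1 : i ≠ p) (h2 : j ≠ l) (t u : F) :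
    Commute (X.x (T.ρ i j) t) (X.x (T.ρ l p) u) :=
  (X.commute_of (T.ne_ng h h' h1) (T.not_comb h h' h1 h2) t u).symm

variable (h1 : i ≠ j) (h2 : i ≠ l) (h3 : j ≠ l)
include h1 h2 h3

theorem refl_eq : refl (T.ρ i j) (T.ρ j l) = T.ρ i l :=
  T.eq_of h2 (by rw [rtv_refl_of_neg_one (T.hA _ _ _ h1 h2 h3)]; simp [T.psi h1, T.psi h3]) fun x => by
    rw [rtv_refl_of_neg_one (T.hA _ _ _ h1 h2 h3), dotProduct_add, T.he _ _ h1, T.he _ _ h3]; ring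

theorem rtv_add : rtv (T.ρ i l) = rtv (T.ρ i j) + rtv (T.ρ j l) := by
  rw [← T.refl_eq h1 h2 h3, rtv_refl_of_neg_one (T.hA _ _ _ h1 h2 h3)]

theorem N_eq : N (T.ρ i j) (T.ρ j l) = eta (T.ρ i j) (T.ρ j l) ∧ add (T.ρ i j) (T.ρ j l) = refl (T.ρ i j) (T.ρ j l) :=
  N_eq_eta (N_eq_zero_of (T.ng_eq h1 ▸ T.not_comb h1.symm h3 h3 h1)) (T.hA _ _ _ h1 h2 h3)

theorem N_sq : N (T.ρ i j) (T.ρ j l) * N (T.ρ i j) (T.ρ j l) = 1 := by rw [(T.N_eq h1 h2 h3).1, eta_mul_self]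

omit h1 h2 h3 in
theorem N_ng_refl {a b : Rt D} (e : A a b = -1) (e' : add a b = refl a b) : N (ng a) (refl a b) = N a b := by
  have h1 := N_refl a a b
  have h2 := eta_mul_eta_refl a b
  rw [refl_self, eta_self, e'] at h1
  rw [e] at h2
  rw [h1]; linear_combination (-N a b) * h2

theorem N_swap : N (T.ρ j i) (T.ρ i l) = N (T.ρ i j) (T.ρ j l) := by
  rw [← T.ng_eq h1, ← T.refl_eq h1 h2 h3, N_ng_refl (T.hA _ _ _ h1 h2 h3) (T.N_eq h1 h2 h3).2]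

theorem N_swap' : N (T.ρ i l) (T.ρ l j) = N (T.ρ i j) (T.ρ j l) := by
  have e : A (T.ρ j l) (T.ρ i j) = -1 := by
    rw [← T.ng_eq h3.symm, ← T.ng_eq h1.symm, A_ng_left, A_ng_right, neg_neg, T.hA _ _ _ h3.symm h2.symm h1.symm]
  have e1 : refl (T.ρ j l) (T.ρ i j) = T.ρ i l :=
    rtv_injective (by rw [rtv_refl_of_neg_one e, T.rtv_add h1 h2 h3, add_comm])
  have := N_ng_refl e (N_eq_eta (N_eq_zero_of (T.ng_eq h3 ▸ T.not_comb h3.symm h1 h3.symm h1.symm)) e).2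
  rw [T.ng_eq h3, e1, N_anti, N_anti (T.ρ i j)] at this
  exact neg_injective this

theorem comm (X : Sys D F G) (t u : F) : X.x (T.ρ i j) t * X.x (T.ρ j l) u * (X.x (T.ρ i j) t)⁻¹ * (X.x (T.ρ j l) u)⁻¹ =
    X.x (T.ρ i l) (N (T.ρ i j) (T.ρ j l) * t * u) := by
  have key : ∀ {a b c d}, a ≠ b → c ≠ d → (a = i ∧ b = j ∧ c = j ∧ d = l ∨ a = j ∧ b = l ∧ c = i ∧ d = j) →
      D.chainRoot (T.ρ a b) (T.ρ c d) 2 = none := fun e1 e2 e3 => by
    by_contra h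
    obtain ⟨r, hr⟩ := Option.ne_none_iff_exists'.1 h
    obtain ⟨_, e⟩ := chainRoot_spec (i := 1) hr
    obtain ⟨u, v, -, h4⟩ := T.comb e1 e2 (a := 2) (b := 1) (e.trans (by rw [one_smul]; rfl))
    have h5 := h4 i
    have h6 := h4 l
    grind
  have h0 : N (T.ρ i j) (T.ρ j l) ≠ 0 := left_ne_zero_of_mul_eq_one (T.N_sq h1 h2 h3)
  have := X.comm _ _ (ne_of_A (by rw [T.hA _ _ _ h1 h2 h3]; decide)) (T.ne_ng h1 h3 h2) t u
  rw [commW, commTerms_of_short (key h1 h3 (by simp)) (key h3 h1 (by simp)), chainRoot_one h0, (T.N_eq h1 h2 h3).2,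
    T.refl_eq h1 h2 h3] at this
  simp only [Option.map_some, Option.toList_some, List.map_singleton, gword_cons, gword_nil, mul_one, pow_one] at this
  have c1 := T.commute X h2 h1 h1 h2.symm (N (T.ρ i j) (T.ρ j l) * t * u) t
  have c2 := T.commute X h2 h3 h2 h3.symm (N (T.ρ i j) (T.ρ j l) * t * u) u
  rw [show (D.chainM (T.ρ i j) (T.ρ j l) 1 : F) * -t * u = -(N (T.ρ i j) (T.ρ j l) * t * u) by
    rw [mul_neg, neg_mul]; rfl, X.x_neg] at this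
  rw [mul_inv_eq_iff_eq_mul, mul_inv_eq_iff_eq_mul, mul_assoc, this, ← mul_assoc, (c1.mul_right c2).mul_inv_cancel]

omit h1 h2 h3 in
theorem exists_hom [Finite F] [Conn D] (X : Sys D F G) (m : X.Mult) : ∃ φ : SL(k + 2, F) →* G, ∃ ε : Fin (k + 2) → Fin (k + 2) → Fˣ,
    ∀ i j, i ≠ j → ∀ t, φ (el i j t) = X.x (T.ρ i j) (ε i j * t) := by
  rcases k with _ | k
  · refine ⟨Ree.sysSL2 m (T.ρ 0 1), 1, fun i j h t => ?_⟩
    fin_cases i <;> fin_cases j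
    · exact (h rfl).elim
    · rw [show el _ _ t = uSL t from Subtype.ext (by rw [el_val h]; ext a b; fin_cases a <;> fin_cases b <;> simp [uSL]),
        Ree.sysSL2_u]; simp
    · rw [show el _ _ t = lSL t from Subtype.ext (by rw [el_val h]; ext a b; fin_cases a <;> fin_cases b <;> simp [lSL]),
        Ree.sysSL2_l, T.ng_eq (by decide)]; simp
    · exact (h rfl).elim
  let ε : Fin (k + 3) → Fin (k + 3) → ℤ := fun i j => if i = 0 ∨ j = 0 then 1 else N (T.ρ i 0) (T.ρ 0 j)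
  let Y : Fin (k + 3) → Fin (k + 3) → F → G := fun i j t => X.x (T.ρ i j) (ε i j * t)
  have c : ∀ {i j l p}, i ≠ j → l ≠ p → i ≠ p → j ≠ l → ∀ t u, Commute (Y i j t) (Y l p u) :=
    fun a b c d t u => T.commute X a b c d _ _
  have s : ∀ {i j l}, i ≠ j → i ≠ l → j ≠ l → ε i j * ε j l * N (T.ρ i j) (T.ρ j l) = ε i l →
      ∀ a b, StC Y i j l a b := fun a b c e t u => by
    simp only [StC, Y, T.comm a b c, ← e]; congr 1; push_cast; ring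
  have s0 : ∀ {i j l}, i ≠ j → i ≠ l → j ≠ l → i = 0 ∨ j = 0 ∨ l = 0 → ∀ a b, StC Y i j l a b :=
    fun {i j l} a b c e => s a b c (by
      rcases e with rfl | rfl | rfl
      · simp [ε, a.symm, b.symm, T.N_swap a b c, T.N_sq a b c]
      · simp [ε, a, c.symm]
      · simp [ε, b, c, T.N_swap' a b c, T.N_sq a b c])
  obtain ⟨φ, hφ⟩ := StRel.exists_hom (n := k + 3) (by omega) (X := Y) ⟨fun i j _ a b => by simp only [Y, mul_add, X.add],
    fun i j l a b _ => c a b b a.symm, fun i j l _ b d => c d b d b.symm,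
    fun i j l p a _ b d _ e => c a e b d, fun i j l a b d t u => by
      by_cases e : i = 0 ∨ j = 0 ∨ l = 0
      · exact s0 a b d e t u
      push Not at e
      obtain ⟨e1, e2, e3⟩ := e
      exact stC4 (o := 0) (s0 e1 a e2.symm (by simp) _ _) (s0 e1 b e3.symm (by simp) _ _)
        (s0 e2.symm e3.symm d (by simp) _ _) (c d e1 e2 b.symm _ _) (c e3.symm e2.symm e2.symm e3 _ _)
        (c b e1 e1 b.symm _ _) (c b e2.symm a e3 _ _) (c b e3.symm b e3 _ _)⟩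
  have hε : ∀ i j, i ≠ j → (ε i j : F) * ε i j = 1 := fun i j h => by
    rw [← Int.cast_mul]
    simp only [ε]
    split_ifs with e
    · simp
    · push Not at e; rw [T.N_sq e.1 h e.2.symm, Int.cast_one]
  exact ⟨φ, fun i j => if h : i ≠ j then Units.mk0 _ (left_ne_zero_of_mul_eq_one (hε i j h)) else 1,
    fun i j h t => by simp only [hφ i j h, dif_pos h]; rfl⟩

end TA

end Cfsg.Agent.ThC
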