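import Cfsg.Agent.Ore.Final

/-! Every non-scalar invertible matrix is a product of a matrix of type `d ⊕ C(h)` and a cyclic matrix with
prescribed characteristic polynomial (`lev`). -/

set_option autoImplicit false

namespace Cfsg.Agent.ThC

open Polynomial Matrix Cfsg.Agent.Classical Cfsg.Agent.Ore

variable {F : Type*} [Field F]

theorem cy_hess {m : ℕ} {M : Matrix (Fin (m + 1)) (Fin (m + 1)) F} (h1 : ∀ i j : Fin (m + 1), j.val + 1 < i → M i j = 0)
    (h2 : ∀ i j : Fin (m + 1), i.val = j + 1 → M i j ≠ 0) : Cy M (Pi.single 0 1) := by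
  intro U hb hU
  refine flag U fun r => ?_
  induction r using Fin.induction with
  | zero => exact ⟨_, hb, by simp, fun i hi => by simp [hi.ne']⟩
  | succ r ih =>
    obtain ⟨v, hv, e1, e2⟩ := ih
    have key : ∀ i, r.succ ≤ i → (M *ᵥ v) i = M i r.castSucc * v r.castSucc := fun i hi =>
      Fintype.sum_eq_single (f := fun j => M i j * v j) r.castSucc fun j hj => by
        rcases lt_or_gt_of_ne hj with h | h
        · rw [h1 i j (by rw [Fin.lt_def] at h; rw [Fin.le_def] at hi; simp at h hi; omega), zero_mul]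
        · rw [e2 j h, mul_zero]
    refine ⟨_, hU v hv, ?_, fun i hi => ?_⟩
    · rw [key _ le_rfl]; exact mul_ne_zero (h2 _ _ (by simp)) e1
    · rw [key _ hi.le, h1 _ _ (by rw [Fin.lt_def] at hi; simpa using hi), zero_mul]

/-- The position of a row. -/
def tau {k : ℕ} (i : Fin (k + 1)) : ℕ := if i = Fin.last k then 0 else i + 1

/-- The first `s` rows are cleared. -/
def St {k : ℕ} (s : ℕ) (N : Matrix (Fin (k + 1)) (Fin (k + 1)) F) : Prop :=
  ∀ i, tau i < s → (∀ j : Fin (k + 1), tau i < j → N i j = 0) ∧ ∀ j : Fin (k + 1), j = tau i → N i j ≠ 0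

theorem tau_inj {k : ℕ} {i j : Fin (k + 1)} (h : tau i = tau j) : i = j := by
  unfold tau at h
  split_ifs at h with a b b <;> first | omega | exact Fin.ext (by omega) | simp [*]

theorem St.clear {k : ℕ} {N : Matrix (Fin (k + 1)) (Fin (k + 1)) F} {c ρ : Fin (k + 1)} (h : St c N) (hρ : tau ρ = c)
    (h0 : N ρ c ≠ 0) : ∃ R : Matrix _ _ F, R.BlockTriangular id ∧ R.det ≠ 0 ∧ St (c + 1) (N * R) := by
  let w : Fin (k + 1) → F := fun j => if c < j then -N ρ j / N ρ c else 0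
  have hR : (1 + vecMulVec (Pi.single c 1) w).BlockTriangular id := fun i j hij => by
    have : j < i := hij
    simp only [Matrix.add_apply, one_apply_ne this.ne', vecMulVec_apply, w, Pi.single_apply, zero_add]
    split_ifs with a b
    · subst a; exact absurd b this.not_gt
    all_goals simp
  have e : ∀ i j, (N * (1 + vecMulVec (Pi.single c 1) w)) i j = N i j + N i c * w j := fun i j => by
    rw [mul_add, mul_one, mul_vecMulVec, Matrix.add_apply, vecMulVec_apply, mulVec_single_one, col_apply]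
  refine ⟨_, hR, ?_, fun i hi => ?_⟩
  · rw [det_of_isUpperTriangular hR]
    refine Finset.prod_ne_zero_iff.2 fun i _ => ?_
    by_cases a : i = c <;> simp [vecMulVec_apply, w, a]
  · rcases (Nat.lt_succ_iff.1 hi).eq_or_lt with a | a
    · obtain rfl := tau_inj (a.trans hρ.symm)
      refine ⟨fun j hj => ?_, fun j hj => ?_⟩
      · rw [e, show w j = _ from if_pos (by rw [Fin.lt_def]; omega)]; field_simp; ring
      · obtain rfl : j = c := Fin.ext (by omega)
        rw [e]; simpa [w] using h0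
    · simpa only [e, (h i a).1 c a, zero_mul, add_zero] using h i a

theorem hess {k : ℕ} {Q : Matrix (Fin (k + 1)) (Fin (k + 1)) F} (h : Q.det ≠ 0) (h0 : Q (Fin.last k) 0 ≠ 0) :
    ∀ s ≤ k, ∃ u R : Matrix _ _ F, u.BlockTriangular id ∧ u.det ≠ 0 ∧ R.BlockTriangular id ∧ R.det ≠ 0 ∧
      St (s + 1) (u * Q * R) := by
  intro s
  induction s with
  | zero =>
    intro _
    obtain ⟨R, a, b, c⟩ := St.clear (N := Q) (c := 0) (fun i hi => absurd hi (by simp)) (by simp [tau]) h0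
    exact ⟨1, R, blockTriangular_one, by simp, a, b, by simpa using c⟩
  | succ s ih =>
    intro hs
    obtain ⟨u, R, a1, a2, a3, a4, a5⟩ := ih (by omega)
    let c : Fin (k + 1) := ⟨s + 1, by omega⟩
    let ρ : Fin (k + 1) := ⟨s, by omega⟩
    have hρ : tau ρ = c := if_neg fun e => by have := congrArg Fin.val e; simp [ρ] at this; omega
    obtain ⟨u', b1, b2, b3, b4⟩ : ∃ u' : Matrix _ _ F, u'.BlockTriangular id ∧ u'.det ≠ 0 ∧
        St (s + 1) (u' * (u * Q * R)) ∧ (u' * (u * Q * R)) ρ c ≠ 0 := by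
      generalize hN : u * Q * R = N at a5
      by_cases e : N ρ c = 0
      swap
      · exact ⟨1, blockTriangular_one, by simp, by simpa, by simpa⟩
      obtain ⟨i, hi⟩ : ∃ i, N i c ≠ 0 := by
        by_contra! H
        exact mul_ne_zero (mul_ne_zero a2 h) a4 (by rw [← det_mul, ← det_mul, hN]; exact det_eq_zero_of_column_eq_zero c H)
      have h1 : ¬ tau i < s + 1 := fun h => hi ((a5 i h).1 c h)
      have h2 : i ≠ ρ := fun h => hi (h ▸ e)
      have h3 : ρ < i := by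
        rw [Fin.lt_def]; rw [Ne, Fin.ext_iff] at h2; unfold tau at h1; split_ifs at h1 <;> simp only [ρ] at * <;> omega
      refine ⟨transvection ρ i 1, fun x y hxy => ?_, by rw [det_transvection_of_ne _ _ h2.symm]; simp, fun x hx => ?_,
        by simp [e, hi]⟩
      · have : y < x := hxy
        rw [transvection, Matrix.add_apply, one_apply_ne this.ne', single_apply_of_ne, add_zero]
        rintro ⟨rfl, rfl⟩; exact this.not_gt h3
      · have : x ≠ ρ := fun h => by rw [h, hρ] at hx; simp [c] at hx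
        simpa only [transvection_mul_apply_of_ne _ _ _ _ this] using a5 x hx
    obtain ⟨R', d1, d2, d3⟩ := St.clear (c := c) b3 hρ b4
    exact ⟨u' * u, R * R', b1.mul a1, by rw [det_mul]; exact mul_ne_zero b2 a2, a3.mul d1,
      by rw [det_mul]; exact mul_ne_zero a4 d2, by simpa only [mul_assoc] using d3⟩

theorem St.cy {k : ℕ} {N : Matrix (Fin (k + 1)) (Fin (k + 1)) F} (h : St (k + 1) N) :
    Cy Nᵀ (Pi.single (Fin.last k) 1) := by
  have t : ∀ i : Fin (k + 1), tau i < k + 1 := fun i => by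
    unfold tau; split_ifs with a
    · omega
    · have := Fin.val_lt_last a; omega
  have t' : ∀ i j : Fin (k + 1), j.val + 1 ≤ i → tau j = j + 1 := fun i j e =>
    if_neg fun a => by have := i.2; simp [a] at e; omega
  intro U hb hU
  refine cy_hess (fun i j e => (h j (t j)).1 i (by rw [t' i j e.le]; omega))
    (fun i j e => (h j (t j)).2 i (by rw [t' i j e.ge, e])) U ?_ hU
  have h0 := (h _ (t (Fin.last k))).2 0 (by simp [tau])
  convert U.smul_mem (N (Fin.last k) 0)⁻¹ (hU _ hb)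
  ext i
  by_cases a : i = 0
  · simp [a, h0]
  · simp [a, (h _ (t (Fin.last k))).1 i (by simpa [tau, Fin.pos_iff_ne_zero'] using Fin.pos_iff_ne_zero.2 a)]

theorem exists_Z [Finite F] {k : ℕ} {Q : Matrix (Fin (k + 1)) (Fin (k + 1)) F} (h : Q.det ≠ 0)
    (h0 : Q (Fin.last k) 0 ≠ 0) {g : F[X]} (hg : g.Monic) (hd : g.natDegree = k + 1) (g0 : dt g ≠ 0) :
    ∃ Z : Matrix _ _ F, ty Z = gdeg g ∧ Z.det = dt g ∧ (Z⁻¹ * Q).BlockTriangular id := by
  obtain ⟨u, R, a1, a2, a3, a4, a5⟩ := hess h h0 k le_rfl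
  obtain ⟨κ, hκ⟩ := a5.cy.place hg (by simp [hd])
  have hc := a5.cy.feedback κ
  have e1 := hc.ty hg (by simp [hd]) hκ
  have e2 : _ = dt g := (dt_charpoly _).symm.trans (congrArg dt (hc.charpoly hg (by simp [hd]) hκ))
  rw [← transpose_vecMulVec, ← transpose_add] at e1 e2
  rw [ty_transpose] at e1
  rw [det_transpose] at e2
  set N := u * Q * R + vecMulVec κ (Pi.single (Fin.last k) 1) with hN
  have u1 := mul_nonsing_inv u a2.isUnit
  have u2 := nonsing_inv_mul u a2.isUnit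
  have e3 : (u⁻¹ * N * u).det = dt g := by rw [det_mul, mul_comm, ← det_mul, ← mul_assoc, u1, one_mul, e2]
  refine ⟨u⁻¹ * N * u, (ty_congr u2 u1 (by rw [mul_assoc, u1, mul_one])).trans e1, e3, ?_⟩
  have e4 : (Q⁻¹ * (u⁻¹ * N * u)).BlockTriangular id := by
    rw [← mul_assoc, ← mul_assoc, hN, mul_add, mul_assoc Q⁻¹, ← mul_assoc, ← mul_assoc, mul_assoc Q⁻¹, ← mul_assoc u⁻¹,
      u2, one_mul, nonsing_inv_mul _ h.isUnit, one_mul, mul_vecMulVec]
    refine (a3.add fun i j hij => ?_).mul a1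
    have : j ≠ Fin.last k := fun e => (Fin.le_last i).not_gt (e ▸ hij)
    simp [vecMulVec_apply, this]
  haveI := invertibleOfIsUnitDet (Q⁻¹ * (u⁻¹ * N * u))
    (by rw [det_mul, e3]; exact (isUnit_nonsing_inv_det _ h.isUnit).mul g0.isUnit)
  have := blockTriangular_inv_of_blockTriangular e4
  rwa [Matrix.mul_inv_rev, nonsing_inv_nonsing_inv _ h.isUnit] at this

/-- `Unit ⊕ Fin m ≃ Fin (m + 1)`. -/
def eU (m : ℕ) : Unit ⊕ Fin m ≃ Fin (m + 1) where
  toFun := Sum.elim (fun _ => 0) Fin.succ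
  invFun := Fin.cons (.inl ()) .inr
  left_inv := by rintro (_ | _) <;> simp
  right_inv i := by induction i using Fin.cases <;> simp

theorem ty_cons [Finite F] {m : ℕ} {M : Matrix (Fin (m + 1)) (Fin (m + 1)) F} (h0 : ∀ i : Fin m, M i.succ 0 = 0)
    {g : F[X]} (hg : g ≠ 0) (h1 : ty (M.submatrix Fin.succ Fin.succ) = gdeg g) (h2 : g.eval (M 0 0) ≠ 0) :
    ty M = gdeg (X - C (M 0 0)) + gdeg g := by
  rw [← ty_submatrix M (eU m), ← h1, ← ty_s1_tri _ (rw1 fun j => M 0 j.succ) (aeval_of_ty hg h1) h2]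
  congr 1
  ext (i | i) (j | j) <;> simp [eU, s1, rw1, h0]

/-- `0 ⊕ T`. -/
def ds {m : ℕ} (T : Matrix (Fin m) (Fin m) F) : Matrix (Fin (m + 1)) (Fin (m + 1)) F :=
  of (Fin.cons 0 fun i => Fin.cons 0 (T i))

theorem lev_aux [Finite F] {k : ℕ} {A : Matrix (Fin (k + 2)) (Fin (k + 2)) F} (hA : A.det ≠ 0)
    (h1 : A (Fin.last _) 0 ≠ 0) (h2 : A⁻¹ (Fin.last _) 0 ≠ 0) {d : F} {g f : F[X]} (hg : g.Monic) (hf : f.Monic)
    (dg : g.natDegree = k + 1) (df : f.natDegree = k + 2) (hd : g.eval d ≠ 0) (e : d * dt g * dt f = A.det) :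
    ∃ Z Y, A = Z * Y ∧ ty Z = gdeg (X - C d) + gdeg g ∧ ty Y = gdeg f := by
  have g0 : dt g ≠ 0 := right_ne_zero_of_mul (left_ne_zero_of_mul (e ▸ hA))
  have f0 : dt f ≠ 0 := right_ne_zero_of_mul (e ▸ hA)
  have hQ : (A.submatrix Fin.succ Fin.castSucc).det ≠ 0 := fun h => h2 (by
    rw [inv_def, Matrix.smul_apply, adjugate_fin_succ_eq_det_submatrix, Fin.succAbove_zero, Fin.succAbove_last, h]; simp)
  obtain ⟨Z, z1, z2, z3⟩ := exists_Z hQ h1 hg dg g0
  have z4 := mul_nonsing_inv Z (z2 ▸ g0).isUnit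
  have m1 : ∀ i j, (ds Z⁻¹ * A) i.succ j.castSucc = (Z⁻¹ * A.submatrix Fin.succ Fin.castSucc) i j := fun i j => by
    simp [ds, mul_apply, Fin.sum_univ_succ (n := k + 1)]
  have hc : Cy (ds Z⁻¹ * A) (Pi.single 0 1) := cy_hess (fun i j hij => by
      obtain ⟨i, rfl⟩ := Fin.exists_succ_eq.2 (show i ≠ 0 by rintro rfl; simp at hij)
      obtain ⟨j, rfl⟩ := Fin.exists_castSucc_eq.2 (show j ≠ Fin.last _ by rintro rfl; have := i.2; simp at hij; omega)
      rw [m1]; exact z3 (by simpa using hij)) fun i j hij => by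
    obtain ⟨i, rfl⟩ := Fin.exists_succ_eq.2 (show i ≠ 0 by rintro rfl; simp at hij)
    obtain ⟨j, rfl⟩ := Fin.exists_castSucc_eq.2 (show j ≠ Fin.last _ by rintro rfl; have := i.2; simp at hij; omega)
    obtain rfl : i = j := Fin.ext (by simpa using hij)
    have := mul_ne_zero (isUnit_nonsing_inv_det Z (z2 ▸ g0).isUnit).ne_zero hQ
    rw [← det_mul, det_of_isUpperTriangular z3] at this
    rw [m1]; exact Finset.prod_ne_zero_iff.1 this _ (Finset.mem_univ _)
  obtain ⟨κ, hκ⟩ := hc.place hf (by simp [df])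
  have hc' := hc.feedback κ
  have e2 : _ = dt f := (dt_charpoly _).symm.trans (congrArg dt (hc'.charpoly hf (by simp [df]) hκ))
  have e1 := hc'.ty hf (by simp [df]) hκ
  set Y := ds Z⁻¹ * A + vecMulVec (Pi.single 0 1) κ with hY
  have y1 := nonsing_inv_mul Y (e2 ▸ f0).isUnit
  have y2 : ds Z * Y = ds 1 * A := by
    have : ds Z * ds Z⁻¹ = ds 1 := by
      rw [← z4]; ext i j
      induction i using Fin.cases <;> induction j using Fin.cases <;> simp [ds, mul_apply, Fin.sum_univ_succ (n := k + 1)]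
    rw [hY, mul_add, ← mul_assoc, this, mul_vecMulVec, mulVec_single_one, show (ds Z).col 0 = 0 from ?_, zero_vecMulVec,
      add_zero]
    ext i; induction i using Fin.cases <;> simp [ds]
  have y3 : ∀ i j, (A * Y⁻¹) (Fin.succ i) j = ds Z i.succ j := fun i j => by
    have : ds Z = ds 1 * (A * Y⁻¹) := by rw [← mul_assoc, ← y2, mul_nonsing_inv_cancel_right _ _ (e2 ▸ f0).isUnit]
    rw [this]
    generalize A * Y⁻¹ = W
    simp [ds, mul_apply, Fin.sum_univ_succ (n := k + 1), one_apply]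
  have y4 : (A * Y⁻¹).submatrix Fin.succ Fin.succ = Z := by ext i j; simp [y3, ds]
  have y5 : ∀ i : Fin (k + 1), (A * Y⁻¹) i.succ 0 = 0 := fun i => by simp [y3, ds]
  have y6 : (A * Y⁻¹) 0 0 = d := by
    have := det_mul (A * Y⁻¹) Y
    rw [mul_assoc, y1, mul_one, ← e, e2, det_succ_column_zero, Fin.sum_univ_succ] at this
    simp only [y5, mul_zero, zero_mul, Finset.sum_const_zero, add_zero, Fin.succAbove_zero, y4, z2] at this
    simpa [f0, g0] using this.symm
  exact ⟨A * Y⁻¹, Y, by rw [mul_assoc, y1, mul_one], y6 ▸ ty_cons y5 hg.ne_zero (y4 ▸ z1) (y6 ▸ hd), e1⟩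

theorem exists_PQ {k : ℕ} {e θ : Fin (k + 2) → F} (he : e ≠ 0) (hθ : θ ≠ 0) (h : θ ⬝ᵥ e = 0) :
    ∃ P : Matrix (Fin (k + 2)) (Fin (k + 2)) F, P.det ≠ 0 ∧ P *ᵥ Pi.single 0 1 = e ∧
      Pi.single (Fin.last _) 1 ᵥ* P⁻¹ = θ := by
  obtain ⟨i, hi⟩ := Function.ne_iff.1 he
  let P : Matrix _ _ F := (updateCol 1 i e).submatrix id (Equiv.swap 0 i)
  have p1 : P.det ≠ 0 := by
    rw [det_permute', ← cramer_apply, cramer_one]
    exact mul_ne_zero (by rcases Int.units_eq_one_or (Equiv.Perm.sign (Equiv.swap 0 i)) with h | h <;> simp [h]) hi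
  have p2 : P *ᵥ Pi.single 0 1 = e := by ext x; simp [P]
  have p3 : (θ ᵥ* P) 0 = 0 := by rw [← h, ← p2, dotProduct_mulVec]; simp
  obtain ⟨j, hj⟩ : ∃ j, (θ ᵥ* P) j ≠ 0 := Function.ne_iff.1 fun h => hθ (eq_zero_of_vecMul_eq_zero p1 h)
  have hj0 : j ≠ 0 := fun h => hj (h ▸ p3)
  let R : Matrix _ _ F := (updateRow 1 j (θ ᵥ* P)).submatrix (Equiv.swap (Fin.last _) j) id
  have r1 : R.det ≠ 0 := by
    rw [det_permute, ← cramer_transpose_apply, transpose_one, cramer_one]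
    exact mul_ne_zero (by
      rcases Int.units_eq_one_or (Equiv.Perm.sign (Equiv.swap (Fin.last _) j)) with h | h <;> simp [h]) hj
  have r2 : R *ᵥ Pi.single 0 1 = Pi.single 0 1 := by
    ext x
    simp only [R, mulVec_single_one, col_apply, submatrix_apply, id, updateRow_apply, p3, one_apply, Pi.single_apply,
      Equiv.swap_apply_def]
    have : Fin.last (k + 1) ≠ 0 := Fin.last_pos.ne'
    grind
  refine ⟨P * R⁻¹, by rw [det_mul]; exact mul_ne_zero p1 (isUnit_nonsing_inv_det R r1.isUnit).ne_zero, ?_, ?_⟩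
  · rw [← mulVec_mulVec, ← r2, mulVec_mulVec _ R⁻¹, nonsing_inv_mul _ r1.isUnit, one_mulVec, p2]
  · rw [Matrix.mul_inv_rev, nonsing_inv_nonsing_inv _ r1.isUnit, ← vecMul_vecMul, single_one_vecMul,
      show R.row (Fin.last _) = θ ᵥ* P by ext x; simp [R], vecMul_vecMul, mul_nonsing_inv _ p1.isUnit, vecMul_one]

theorem exists_theta {ι : Type*} [Fintype ι] [DecidableEq ι] {e x : ι → F} (h : ∀ c : F, x ≠ c • e) :
    ∃ θ, θ ⬝ᵥ e = 0 ∧ θ ⬝ᵥ x ≠ 0 := by
  by_cases he : e = 0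
  · obtain ⟨i, hi⟩ := Function.ne_iff.1 (h 0)
    exact ⟨Pi.single i 1, by simp [he], by simpa using hi⟩
  obtain ⟨i, hi⟩ := Function.ne_iff.1 he
  obtain ⟨j, hj⟩ := Function.ne_iff.1 (h (x i / e i))
  refine ⟨Pi.single j (e i) - Pi.single i (e j), by simp [mul_comm], fun h => hj ?_⟩
  simp only [sub_dotProduct, single_dotProduct, Pi.zero_apply] at h hi
  rw [Pi.smul_apply, smul_eq_mul]; field_simp; linear_combination h

theorem lev [Finite F] {k : ℕ} {A : Matrix (Fin (k + 2)) (Fin (k + 2)) F} (hA : A.det ≠ 0) (hs : ∀ c : F, A ≠ c • 1)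
    {d : F} {g f : F[X]} (hg : g.Monic) (hf : f.Monic) (dg : g.natDegree = k + 1) (df : f.natDegree = k + 2)
    (hd : g.eval d ≠ 0) (e : d * dt g * dt f = A.det) :
    ∃ Z Y, A = Z * Y ∧ ty Z = gdeg (X - C d) + gdeg g ∧ ty Y = gdeg f := by
  obtain ⟨v, hv⟩ : ∃ v, ∀ c : F, A *ᵥ v ≠ c • v := by
    by_contra! H
    choose c hc using H
    refine hs (A 0 0) (Matrix.ext fun i j => ?_)
    have h1 : ∀ i j, i ≠ j → A i j = 0 := fun i j h => by simpa [h] using congrFun (hc (Pi.single j 1)) i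
    by_cases h : i = j
    · subst h
      by_cases h : i = 0
      · simp [h]
      have h2 := hc (Pi.single i 1 + Pi.single 0 1)
      have h3 := congrFun h2 i
      have h4 := congrFun h2 0
      simp [mulVec_add, h, Ne.symm h, h1 _ _ h, h1 _ _ (Ne.symm h)] at h3 h4
      simp [h3, h4]
    · simp [h, h1 _ _ h]
  have v0 : v ≠ 0 := fun h => hv 0 (by simp [h])
  have hv' : ∀ c : F, A⁻¹ *ᵥ v ≠ c • v := fun c h => by
    have h1 := congrArg (A *ᵥ ·) h
    simp only [mulVec_mulVec, mul_nonsing_inv _ hA.isUnit, one_mulVec, mulVec_smul] at h1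
    have : c ≠ 0 := fun h => v0 (by simpa [h] using h1)
    exact hv c⁻¹ (by rw [eq_inv_smul_iff₀ this, ← h1])
  obtain ⟨θ, t0, t1, t2⟩ : ∃ θ, θ ⬝ᵥ v = 0 ∧ θ ⬝ᵥ (A *ᵥ v) ≠ 0 ∧ θ ⬝ᵥ (A⁻¹ *ᵥ v) ≠ 0 := by
    obtain ⟨a, a0, a1⟩ := exists_theta hv
    obtain ⟨b, b0, b1⟩ := exists_theta hv'
    by_cases h : a ⬝ᵥ (A⁻¹ *ᵥ v) = 0
    · by_cases h' : b ⬝ᵥ (A *ᵥ v) = 0
      · exact ⟨a + b, by simp [a0, b0], by rwa [add_dotProduct, h', add_zero], by rwa [add_dotProduct, h, zero_add]⟩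
      · exact ⟨b, b0, h', b1⟩
    · exact ⟨a, a0, a1, h⟩
  obtain ⟨P, p0, p1, p2⟩ := exists_PQ v0 (fun h => t1 (by simp [h])) t0
  have u1 := mul_nonsing_inv P p0.isUnit
  have u2 := nonsing_inv_mul P p0.isUnit
  have key : ∀ B : Matrix _ _ F, (P⁻¹ * B * P) (Fin.last _) 0 = θ ⬝ᵥ (B *ᵥ v) := fun B => by
    rw [← p1, ← p2, ← dotProduct_mulVec, mulVec_mulVec, mulVec_mulVec]; simp [mul_assoc]
  have e0 : (P⁻¹ * A * P).det = A.det := by rw [det_mul, mul_comm, ← det_mul, ← mul_assoc, u1, one_mul]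
  obtain ⟨Z, Y, e1, e2, e3⟩ := lev_aux (A := P⁻¹ * A * P) (e0 ▸ hA) (key A ▸ t1) (by
    rwa [Matrix.mul_inv_rev, Matrix.mul_inv_rev, nonsing_inv_nonsing_inv _ p0.isUnit, ← mul_assoc, key]) hg hf dg df hd
    (e0 ▸ e)
  have c : ∀ W : Matrix _ _ F, ty (P * W * P⁻¹) = ty W := fun W => ty_congr u1 u2 (by rw [mul_assoc, u2, mul_one])
  refine ⟨P * Z * P⁻¹, P * Y * P⁻¹, ?_, (c Z).trans e2, (c Y).trans e3⟩
  calc A = P * P⁻¹ * A * (P * P⁻¹) := by simp [u1]
    _ = P * (Z * (P⁻¹ * P) * Y) * P⁻¹ := by rw [u2, mul_one, ← e1]; simp only [mul_assoc]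
    _ = _ := by simp only [mul_assoc]

end Cfsg.Agent.ThC
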