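import Cfsg.Agent.ThC.Lev
import Cfsg.Agent.Pres.Emb
import Cfsg.Agent.Pres.St

/-! Types of inverses, bidiagonal matrices, conjugacy in cosets of `SL_n`, and the class square for `SL_n`. -/

set_option autoImplicit false

namespace Cfsg.Agent.ThC

open Polynomial Matrix Cfsg.Agent.Classical Cfsg.Agent.Ore Pres
open scoped MatrixGroups

variable {F : Type*} [Field F] {ι : Type*} [Fintype ι] [DecidableEq ι]

theorem cy_inv {M : Matrix ι ι F} {v : ι → F} (h : Cy M v) (h0 : M.det ≠ 0) : Cy M⁻¹ v := fun U hb hU =>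
  h U hb fun u hu => by
    have e : ∀ x, M *ᵥ (M⁻¹ *ᵥ x) = x := fun x => by rw [mulVec_mulVec, mul_nonsing_inv _ h0.isUnit, one_mulVec]
    obtain ⟨x, hx⟩ := (LinearMap.injective_iff_surjective (f := (toLin' M⁻¹).restrict (p := U) (q := U) hU)).1
      (fun a b hab => Subtype.ext (by
        rw [← e a, ← e b]; exact congrArg (M *ᵥ ·) (congrArg Subtype.val hab))) ⟨u, hu⟩
    have : M⁻¹ *ᵥ x = u := congrArg Subtype.val hx
    rw [← this, e]; exact x.2

/-- The polynomial with given roots. -/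
noncomputable def pl (L : List F) : F[X] := (L.map fun c => X - C c).prod

theorem pl_cons (c : F) (L : List F) : pl (c :: L) = (X - C c) * pl L := by simp [pl]

theorem pl_monic (L : List F) : (pl L).Monic := by
  induction L with
  | nil => exact monic_one
  | cons c L ih => rw [pl_cons]; exact (monic_X_sub_C c).mul ih

theorem pl_deg (L : List F) : (pl L).natDegree = L.length := by
  induction L with
  | nil => exact natDegree_one
  | cons c L ih => rw [pl_cons, (monic_X_sub_C c).natDegree_mul (pl_monic L), ih, natDegree_X_sub_C, add_comm]; rfl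

theorem dt_pl (L : List F) : dt (pl L) = L.prod := by
  induction L with
  | nil => exact dt_one
  | cons c L ih => rw [pl_cons, dt_mul (X_sub_C_ne_zero c) (pl_monic L).ne_zero, ih, dt_X_sub_C, List.prod_cons]

theorem pl_eval {L : List F} {c : F} (h : c ∉ L) : (pl L).eval c ≠ 0 := by
  induction L with
  | nil => simp [pl]
  | cons d L ih => simp only [List.mem_cons, not_or] at h; simp [pl_cons, ih h.2, sub_eq_zero, h.1]

theorem gdeg_cons {L : List F} {c : F} (h : c ∉ L) : gdeg (pl (c :: L)) = gdeg (X - C c) + gdeg (pl L) := by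
  rw [pl_cons, gdeg_mul (monic_X_sub_C c) (pl_monic L) (coprime_of_eval (pl_eval h))]

theorem aeval_inv {M : Matrix ι ι F} (h0 : M.det ≠ 0) {L : List F} (hL : (0 : F) ∉ L) :
    ∃ W, aeval M⁻¹ (pl (L.map (·⁻¹))) = aeval M (pl L) * W := by
  induction L with
  | nil => exact ⟨1, by simp [pl]⟩
  | cons c L ih =>
    simp only [List.mem_cons, not_or] at hL
    obtain ⟨W, hW⟩ := ih hL.2
    have h1 : aeval M⁻¹ (X - C c⁻¹) = aeval M (X - C c) * (-c⁻¹ • M⁻¹) := by
      simp [sub_mul, mul_nonsing_inv _ h0.isUnit, Algebra.algebraMap_eq_smul_one, smul_sub, smul_smul, Ne.symm hL.1]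
    refine ⟨W * (-c⁻¹ • M⁻¹), ?_⟩
    have h2 : aeval M⁻¹ (pl (L.map (·⁻¹))) * (-c⁻¹ • M⁻¹) = (-c⁻¹ • M⁻¹) * aeval M⁻¹ (pl (L.map (·⁻¹))) := by
      rw [show -c⁻¹ • M⁻¹ = aeval M⁻¹ (-c⁻¹ • X : F[X]) by simp, ← map_mul, ← map_mul, mul_comm]
    rw [List.map_cons, pl_cons, pl_cons, map_mul, map_mul, h1, mul_assoc, ← h2, hW]
    simp only [mul_assoc]

theorem ty_inv [Finite F] {M : Matrix ι ι F} {v : ι → F} (h : Cy M v) (h0 : M.det ≠ 0) {L : List F} (hL : (0 : F) ∉ L)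
    (hn : L.length = Fintype.card ι) (e : aeval M (pl L) = 0) : ty M⁻¹ = gdeg (pl (L.map (·⁻¹))) := by
  obtain ⟨W, hW⟩ := aeval_inv h0 hL
  exact (cy_inv h h0).ty (pl_monic _) (by simp [pl_deg, hn]) (by rw [hW, e, zero_mul])

theorem det_of_ty [Finite F] {M : Matrix ι ι F} {c : F} {L : List F} (h : ty M = gdeg (pl (c :: L))) :
    M.det = (c :: L).prod := by
  obtain ⟨A, hA, h0, -⟩ := exists_T (pl_monic (c :: L)) (pl_deg _)
  obtain ⟨P, Q, h1, h2, h3⟩ := sim_of_ty (h.trans hA.symm)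
  rw [← dt_pl, ← h0, ← det_conj_of_mul_eq_one h1 h2, ← h3, Matrix.mul_assoc, h1, mul_one]

theorem sl_inv (M : SpecialLinearGroup ι F) : (M⁻¹).1 = M.1⁻¹ :=
  (inv_eq_left_inv (congrArg Subtype.val (inv_mul_cancel M))).symm

/-- Lower bidiagonal unipotent matrices. -/
def Bi {k : ℕ} (s : ℕ) (M : Matrix (Fin k) (Fin k) F) : Prop :=
  ∀ i j, (i = j → M i j = 1) ∧ (i.val = j + 1 → j.val < s → M i j ≠ 0) ∧
    (i ≠ j → ¬ (i.val = j + 1 ∧ j.val < s) → M i j = 0)

theorem Bi.one {k : ℕ} : Bi 0 (1 : Matrix (Fin k) (Fin k) F) := fun i j => by simp +contextual [one_apply]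

theorem Bi.step {k : ℕ} {M : Matrix (Fin k) (Fin k) F} {a b : Fin k} (h : Bi b M) (e : a.val = b + 1) {c : F}
    (hc : c ≠ 0) : Bi (b + 1) (M * (1 + single a b c)) := fun i j => by
  have h1 := h i j
  have h2 := h i a
  rw [mul_add, mul_one, Matrix.add_apply]
  by_cases e' : j = b
  · subst e'
    rw [mul_single_apply_same]
    simp only [Ne, Fin.ext_iff] at *
    by_cases e2 : i.val = a
    · rw [h2.1 e2, h1.2.2 (by omega) (by omega)]; simp [hc]; omega
    · rw [h2.2.2 e2 (by omega)]; simp only [zero_mul, add_zero]; grind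
  · rw [mul_single_apply_of_ne _ _ _ _ _ e', add_zero]
    simp only [Ne, Fin.ext_iff] at *
    grind

theorem Bi.spec [Finite F] {k : ℕ} {M : SL(k + 1, F)} (h : Bi k M.1) :
    ty M.1 = gdeg (pl (List.replicate (k + 1) 1)) ∧ ty (M⁻¹).1 = gdeg (pl (List.replicate (k + 1) 1)) ∧
      ∃ n, M ^ Nat.card F ^ n = 1 := by
  have h1 : Cy M.1 (Pi.single 0 1) := cy_hess (fun i j e => (h i j).2.2 (by rintro rfl; omega) (by omega))
    fun i j e => (h i j).2.1 e (by omega)
  have h2 : aeval M.1 (pl (List.replicate (k + 1) (1 : F))) = 0 := by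
    have : M.1ᵀ.BlockTriangular id := fun i j e => (h j i).2.2 (ne_of_lt e) (by have : j.val < i := e; omega)
    rw [← M.1.aeval_self_charpoly, ← charpoly_transpose, charpoly_of_isUpperTriangular _ this]
    simp [pl, fun i => (h i i).1 rfl]
  refine ⟨h1.ty (pl_monic _) (by simp [pl_deg]) h2, ?_, k + 1, Subtype.ext ?_⟩
  · rw [sl_inv]
    simpa using ty_inv h1 (by simp) (L := List.replicate (k + 1) 1) (by simp) (by simp) h2
  · obtain ⟨p, hp⟩ := CharP.exists F
    haveI := Fintype.ofFinite F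
    obtain ⟨e, hp', he⟩ := FiniteField.card F p
    haveI := Fact.mk hp'
    have h3 : (M.1 - 1 : Matrix _ _ F) ^ (k + 1) = 0 := by
      rw [pl, List.map_replicate, List.prod_replicate, map_pow] at h2; simpa using h2
    refine (Matrix.SpecialLinearGroup.coe_pow _ _).trans ?_
    rw [Nat.card_eq_fintype_card, he, ← pow_mul, ← sub_add_cancel M.1 1,
      add_pow_char_pow_of_commute _ _ (Commute.one_right _), pow_eq_zero_of_le _ h3, one_pow, zero_add]
    · rfl
    · exact (Nat.le_mul_of_pos_left _ e.pos).trans (Nat.lt_pow_self hp'.one_lt).le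

/-- The diagonal matrix `(b, 1, …, 1)`. -/
def dg (k : ℕ) (b : Fˣ) : GL (Fin (k + 1)) F :=
  ⟨diagonal fun i => if i = 0 then b else 1, diagonal fun i => if i = 0 then (b⁻¹ : Fˣ) else 1,
    by rw [diagonal_mul_diagonal, ← diagonal_one]; congr 1; funext i; split_ifs <;> simp,
    by rw [diagonal_mul_diagonal, ← diagonal_one]; congr 1; funext i; split_ifs <;> simp⟩

theorem dg_inv (k : ℕ) (b : Fˣ) : (dg k b)⁻¹ = dg k b⁻¹ := Units.ext rfl

theorem dg_det (k : ℕ) (b : Fˣ) : (dg k b).1.det = b := by simp [dg]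

theorem ty_emb [Finite F] {k : ℕ} {b : Fˣ} (hb : b ≠ 1) {M : SL(k, F)} (h : ty M.1 = gdeg (pl (List.replicate k 1))) :
    ty ((dg k b).1 * (embSL (Fin.succEmb k) M).1) = gdeg (pl ((b : F) :: List.replicate k 1)) := by
  have h1 : (b : F) ∉ List.replicate k (1 : F) := fun h => hb (Units.ext (List.eq_of_mem_replicate h))
  have e : ∀ i j, ((dg k b).1 * (embSL (Fin.succEmb k) M).1) i j = (if i = 0 then (b : F) else 1) *
      ((1 : Matrix _ _ F) i j + ∑ y, (∑ x, (if i = Fin.succ x then 1 else 0) * (M.1 - 1) x y) *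
        if j = Fin.succ y then 1 else 0) := fun i j => diagonal_mul _ _ _ _
  have e0 : ((dg k b).1 * (embSL (Fin.succEmb k) M).1) 0 0 = b := by simp [e, (Fin.succ_ne_zero _).symm]
  rw [gdeg_cons h1, ty_cons (fun i => by simp [e, (Fin.succ_ne_zero _).symm]) (pl_monic _).ne_zero
    (Eq.trans (congrArg ty ?_) h) (e0 ▸ pl_eval h1), e0]
  ext i j; simp [e, one_apply]

theorem irr_cons [Finite F] {L : List F} {c : F} (h : c ∉ L) : Irr (gdeg (pl (c :: L))) :=
  gdeg_cons h ▸ (irr_lin c).add (isTy_gdeg (pl_monic L).ne_zero)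

theorem cls [Finite F] {G : Type*} [Group G] (φ : SpecialLinearGroup ι F →* G) {g : GL ι F} {h : G}
    (hc : ∀ S S' : SpecialLinearGroup ι F, g * S.toGL * g⁻¹ = S'.toGL → h * φ S * h⁻¹ = φ S')
    {S S' : SpecialLinearGroup ι F} (h0 : Irr (ty (g.1 * S.1))) (e : ty (g.1 * S.1) = ty (g.1 * S'.1)) :
    ∃ P, φ P * (h * φ S) * (φ P)⁻¹ = h * φ S' := by
  obtain ⟨N, h1, h2, p, hp, hp'⟩ := h0
  obtain ⟨c, hc'⟩ := isConj_iff.1 ((isConj_units_iff (a := g * S.toGL) (b := g * S'.toGL)).2 (isConj_of_ty e))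
  obtain ⟨z, z1, z2⟩ := exists_det_one_conj (x := g * S.toGL) hp' ((elemDiv_of_ty h1 h2).symm ▸ hp) c
  obtain ⟨P, rfl⟩ : z ∈ (SpecialLinearGroup.toGL : SpecialLinearGroup ι F →* GL ι F).range := by
    rw [range_toGL]; exact Units.ext z1
  refine ⟨P, ?_⟩
  have := hc (S' * P * S⁻¹) P (by rw [map_mul, map_mul, map_inv, ← mul_assoc g, ← mul_assoc g, ← hc', ← z2]; group)
  rw [map_mul, map_mul, map_inv] at this
  nth_rewrite 1 [← this]
  group

theorem sl_sq [Fintype F] (hF : 4 ≤ Fintype.card F) (k : ℕ) : ∃ x : SL(k + 2, F), IsConj x x⁻¹ ∧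
    ∀ g : SL(k + 2, F), (∀ c : F, g.1 ≠ c • 1) → ∃ y z, IsConj x y ∧ IsConj x z ∧ g = y * z := by
  classical
  obtain ⟨a, a0, a1, a2⟩ : ∃ a : F, a ≠ 0 ∧ a ≠ 1 ∧ a ≠ -1 := by
    obtain ⟨a, -, ha⟩ := Finset.exists_mem_notMem_of_card_lt_card (s := {(0 : F), 1, -1}) (t := Finset.univ)
      (Finset.card_le_three.trans_lt hF)
    exact ⟨a, by simpa [not_or] using ha⟩
  let L := a⁻¹ :: List.replicate k (1 : F)
  have h1 : a ∉ L := by
    simp only [L, List.mem_cons, List.mem_replicate, a1, and_false, or_false]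
    intro h
    exact (mul_self_eq_one_iff.1 (by nth_rewrite 2 [h]; exact mul_inv_cancel₀ a0)).elim a1 a2
  have h2 : (a :: L).prod = 1 := by simp [L, a0]
  obtain ⟨κ, hκ⟩ := (cy_sh (F := F) (k + 1)).place (pl_monic (a :: L)) (by simp [pl_deg, L])
  have hc := (cy_sh (F := F) (k + 1)).feedback κ
  have e1 := hc.ty (pl_monic (a :: L)) (by simp [pl_deg, L]) hκ
  obtain ⟨x, hx⟩ : ∃ x : SL(k + 2, F), x.1 = sh F (k + 1 + 1) + vecMulVec (Pi.single (Fin.last (k + 1)) 1) κ :=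
    ⟨⟨_, (det_of_ty e1).trans h2⟩, rfl⟩
  rw [← hx] at e1 hc hκ
  have i1 := e1 ▸ irr_cons h1
  refine ⟨x, isConj_SL_of_irr i1 ?_, fun g hg => ?_⟩
  · rw [sl_inv, ty_inv hc (by simp) (by simp [L, a0.symm]) (by simp [L]) hκ, e1]
    simp [L, pl_cons, mul_left_comm]
  · obtain ⟨Z, Y, e2, e3, e4⟩ := lev (by simp) hg (pl_monic L) (pl_monic (a :: L)) (by simp [pl_deg, L])
      (by simp [pl_deg, L]) (pl_eval h1) (by rw [dt_pl, dt_pl, h2, ← List.prod_cons, h2]; simp)
    rw [← gdeg_cons h1] at e3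
    exact ⟨⟨Z, (det_of_ty e3).trans h2⟩, ⟨Y, (det_of_ty e4).trans h2⟩, isConj_SL_of_irr i1 (e1.trans e3.symm),
      isConj_SL_of_irr i1 (e1.trans e4.symm), Subtype.ext e2⟩

end Cfsg.Agent.ThC
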