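import Cfsg.Agent.ThC.Hom
import Cfsg.Agent.ThC.Mat

/-! Thompson's class square for a Chevalley group with a suitable Levi subgroup of type `A` (`TA.sq`). -/

set_option autoImplicit false

namespace Cfsg.Agent.ThC

open Matrix Chev Cfsg.Lie _root_.Cfsg.Agent.Classical Pres Mult Ore
open scoped MatrixGroups

attribute [-simp] zsmul_eq_mul

variable {F : Type*} [Field F] {G : Type*} [Group G] {D : ChevalleyDatum} [Good D]

theorem sq_of {G' : Type*} [Group G'] (π : G →* G') (hπ : Function.Surjective π) (hZ : Subgroup.center G ≤ π.ker) {x : G}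
    (h1 : ∃ z ∈ Subgroup.center G, IsConj x⁻¹ (z * x))
    (h2 : ∀ g, g ∉ Subgroup.center G → ∃ y y', IsConj x y ∧ IsConj x⁻¹ y' ∧ IsConj g (y * y')) :
    ∃ c : G', ∀ g : G', ∃ a b : G', g = (a * c * a⁻¹) * (b * c * b⁻¹) := by
  obtain ⟨z, hz, h1⟩ := h1
  have h3 : IsConj (π x) (π x⁻¹) := by simpa [show π z = 1 from hZ hz] using (π.map_isConj h1).symm
  refine ⟨π x, fun g => ?_⟩
  obtain ⟨g, rfl⟩ := hπ g
  by_cases hg : g ∈ Subgroup.center G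
  · obtain ⟨b, hb⟩ := isConj_iff.1 h3
    exact ⟨1, b, by rw [hb, show π g = 1 from hZ hg]; simp⟩
  obtain ⟨y, y', e1, e2, e3⟩ := h2 g hg
  obtain ⟨a, ha⟩ := isConj_iff.1 (π.map_isConj e1)
  obtain ⟨b, hb⟩ := isConj_iff.1 (h3.trans (π.map_isConj e2))
  obtain ⟨c, hc⟩ := isConj_iff.1 (π.map_isConj e3).symm
  exact ⟨c * a, c * b, by rw [← hc, map_mul, ← ha, ← hb]; group⟩

theorem exists_zeta [Fintype F] (hF : 9 ≤ Fintype.card F) : ∃ ζ : Fˣ, ∀ j : ℤ, j ≠ 0 → |j| ≤ 7 → ζ ^ j ≠ 1 := by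
  classical
  obtain ⟨ζ, hζ⟩ := IsCyclic.exists_ofOrder_eq_natCard (α := Fˣ)
  refine ⟨ζ, fun j h0 h1 h => ?_⟩
  have := Int.le_of_dvd (abs_pos.2 h0) ((dvd_abs _ _).2 (orderOf_dvd_iff_zpow_eq_one.2 h))
  rw [hζ, Nat.card_eq_fintype_card, Fintype.card_units] at this
  omega

namespace TA

variable {k : ℕ} (T : TA D k) {X : Sys D F G} {φ : SL(k + 2, F) →* G} {ε : Fin (k + 2) → Fin (k + 2) → Fˣ}
  (hφ : ∀ i j, i ≠ j → ∀ t, φ (el i j t) = X.x (T.ρ i j) (ε i j * t))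
include hφ

theorem levi {χ : Fn D} {S : Set (Rt D)} (hS : Nilp χ S) {S' : Set (Rt D)} (h : ∀ r ∈ S', r ∈ S ∧ T.ψ ⬝ᵥ rtv r = 0)
    {u : G} (hu : u ∈ X.U S') : ∃ A, φ A = u ∧ A.1 0 0 = 1 := by
  suffices ∃ A, φ A = u ∧ ∀ i j, ¬ (i ≠ j ∧ T.ρ i j ∈ S) → A.1 i j = (1 : Matrix _ _ F) i j from
    this.imp fun A hA => ⟨hA.1, by simpa using hA.2 0 0⟩
  refine Sys.U_induction (P := fun u => ∃ A, φ A = u ∧ ∀ i j, ¬ (i ≠ j ∧ T.ρ i j ∈ S) → A.1 i j = (1 : Matrix _ _ F) i j)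
    ⟨1, map_one _, fun _ _ _ => rfl⟩ ?_ hu
  rintro r hr t _ - ⟨A, rfl, hA⟩
  obtain ⟨i, j, hij, rfl⟩ := (T.lev r).1 (h r hr).2
  refine ⟨A * el i j ((ε i j)⁻¹ * t), by rw [map_mul, hφ i j hij, Units.mul_inv_cancel_left], fun a b hab => ?_⟩
  change (A.1 * (el i j _).1 : Matrix _ _ F) a b = _
  rw [el_val hij, mul_add, mul_one, Matrix.add_apply, hA a b hab, add_eq_left]
  by_cases e : b = j
  · subst e
    have h1 : a ≠ i := fun e => hab (e ▸ ⟨hij, (h _ hr).1⟩)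
    rw [mul_single_apply_same, hA a i fun h2 => ?_, one_apply_ne h1, zero_mul]
    have h3 : a ≠ b := fun e => hS.ne_ng h2.2 (h _ hr).1 (by rw [T.ng_eq h1, e])
    exact hab ⟨h3, hS.closed _ h2.2 _ (h _ hr).1 _ ⟨1, 1, le_rfl, le_rfl, by simp [T.rtv_add h1 h3 hij]⟩⟩
  · exact mul_single_apply_of_ne _ _ _ _ _ e _

theorem norm {χ : Fn D} (h : χ = fn T.ψ ∨ χ = -fn T.ψ) (A : SL(k + 2, F)) :
    φ A ∈ Subgroup.normalizer (X.U {r | 0 < χ (rtv r)} : Set G) :=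
  (eq_top_of_el (H := (Subgroup.normalizer (X.U {r | 0 < χ (rtv r)} : Set G)).comap φ) fun i j e t => by
    rw [Subgroup.mem_comap, hφ i j e]
    exact X.U_nonneg_le_normalizer χ (X.x_mem_U (by rcases h with rfl | rfl <;> simp [fn_apply, T.psi e]) _)).ge trivial

theorem tor_conj [Conn D] (m : X.Mult) {a : Sm D → Fˣ} {b : Fˣ}
    (h : ∀ i j, i ≠ j → chi a (T.ρ i j) = (if i = 0 then b else 1) * if j = 0 then b⁻¹ else 1) (S S' : SL(k + 2, F))
    (e : dg _ b * S.toGL * (dg _ b)⁻¹ = S'.toGL) : m.tor a * φ S * (m.tor a)⁻¹ = φ S' := by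
  obtain ⟨S'', h1⟩ := (eq_top_of_el (H := (SpecialLinearGroup.toGL.prod φ).range.comap
    (((MulAut.conj (dg _ b)).toMonoidHom.comp SpecialLinearGroup.toGL).prod
      ((MulAut.conj (m.tor a)).toMonoidHom.comp φ))) fun i j e t => ⟨el i j (chi a (T.ρ i j) * t), Prod.ext (Units.ext (by
        change (el i j _).1 = (dg _ b).1 * (el i j t).1 * ((dg _ b)⁻¹).1
        rw [el_val e, el_val e, mul_add, add_mul, mul_one, Units.mul_inv, h i j e, add_right_inj]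
        ext x y
        simp only [dg, Units.inv_mk, mul_diagonal, diagonal_mul, single_apply]
        split_ifs <;> simp_all [mul_comm, mul_left_comm])) (by
        simp [hφ i j e, m.tor_conj, mul_left_comm])⟩).ge (Subgroup.mem_top S)
  obtain rfl : S'' = S' := SpecialLinearGroup.toGL_injective ((congrArg Prod.fst h1).trans e)
  exact (congrArg Prod.snd h1).symm

theorem exists_bi {n : G} {w : WG D} (hn : X.Mon n w) (hw : ∀ i j, i ≠ j → w • T.ρ i j = T.ρ j i) :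
    ∀ s ≤ k, ∃ M M' : SL(k + 1, F), Bi s M.1 ∧ Bi s M'.1ᵀ ∧
      (n * φ (embSL (Fin.succEmb _) M) * n⁻¹)⁻¹ = φ (embSL (Fin.succEmb _) M') := by
  intro s
  induction s with
  | zero => exact fun _ => ⟨1, 1, Bi.one, by simpa using Bi.one, by simp⟩
  | succ s ih =>
    intro hs
    obtain ⟨M, M', h1, h2, h3⟩ := ih (by omega)
    obtain ⟨c, -, hc⟩ := hn
    let a : Fin (k + 1) := ⟨s + 1, by omega⟩
    let b : Fin (k + 1) := ⟨s, by omega⟩
    have e : a ≠ b := by simp [a, b]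
    have e' : a.succ ≠ b.succ := by simpa using e
    refine ⟨M * el a b 1, el b a (-(((ε b.succ a.succ)⁻¹ : Fˣ) * (c (T.ρ a.succ b.succ) * ε a.succ b.succ) : F)) * M', ?_, ?_, ?_⟩
    · exact (show (M * el a b 1).1 = _ from congrArg (M.1 * ·) (el_val e 1)) ▸ Bi.step (b := b) h1 rfl one_ne_zero
    · change Bi _ ((el b a _).1 * M'.1)ᵀ
      rw [transpose_mul, el_val e.symm, transpose_add, transpose_one, transpose_single]
      exact Bi.step (b := b) h2 rfl (by simp)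
    · simp only [map_mul, embSL_el _ e, embSL_el _ e.symm, Fin.coe_succEmb, hφ _ _ e', hφ _ _ e'.symm, ← h3, mul_neg,
        X.x_neg, Units.mul_inv_cancel_left, mul_one, ← hw _ _ e']
      rw [← hc]; group

omit hφ in
include T in
theorem main [Fintype F] [Finite G] [Conn D] (hF : 9 ≤ Fintype.card F) (f : Full X) :
    ∃ x : G, (∃ z ∈ Subgroup.center G, IsConj x⁻¹ (z * x)) ∧
      ∀ g, g ∉ Subgroup.center G → ∃ y y', IsConj x y ∧ IsConj x⁻¹ y' ∧ IsConj g (y * y') := by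
  have m := mult_of_finite X
  obtain ⟨φ, ε, hφ⟩ := T.exists_hom X m
  obtain ⟨ζ, hζ⟩ := exists_zeta hF
  let a : Sm D → Fˣ := fun i => ζ ^ T.y i
  have h0 : ∀ r, chi a r = ζ ^ (T.z ⬝ᵥ rtv r) := fun r => by simp only [← T.hz, zpow_sum', chi, a, _root_.zpow_mul]
  have hb := hζ _ T.hδ.1 T.hδ.2
  set b := ζ ^ T.δ with hb'
  have hc := T.tor_conj hφ m (a := a) (b := b) fun i j e => by
    rw [h0, T.hρ i j e]; split_ifs <;> simp [hb']
  have hc' : ∀ S S' : SL(k + 2, F), dg _ b⁻¹ * S.toGL * (dg _ b⁻¹)⁻¹ = S'.toGL →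
      (m.tor a)⁻¹ * φ S * (m.tor a)⁻¹⁻¹ = φ S' := fun S S' e => by
    rw [← hc S' S (by rw [← e, ← dg_inv]; group)]; group
  have c0 : ∀ M, Commute (m.tor a) (φ (embSL (Fin.succEmb (k + 1)) M)) := fun M =>
    Subgroup.mem_centralizer_singleton_iff.1 ((eq_top_of_el (H := (Subgroup.centralizer {m.tor a}).comap
      (φ.comp (embSL (Fin.succEmb (k + 1))))) fun i j e t => by
        have e' : i.succ ≠ j.succ := by simpa using e
        rw [Subgroup.mem_comap, Subgroup.mem_centralizer_singleton_iff, MonoidHom.comp_apply, embSL_el _ e, eq_comm,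
          ← mul_inv_eq_iff_eq_mul, Fin.coe_succEmb, hφ _ _ e', m.tor_conj, h0, T.hρ _ _ e']
        simp).ge (Subgroup.mem_top M)) |>.symm
  obtain ⟨w, w1, w2⟩ := T.hw
  obtain ⟨n, -, hn⟩ := X.exists_mem_N w
  obtain ⟨M, M', b1, b2, b3⟩ := T.exists_bi hφ hn w2 k le_rfl
  obtain ⟨t1, t2, N, t3⟩ := b1.spec
  have t4 := ty_emb hb ((ty_transpose _).symm.trans (Bi.spec (M := M'.transpose) b2).1)
  replace t1 := ty_emb hb t1
  replace t2 := ty_emb (inv_ne_one.2 hb) t2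
  have n1 : ∀ {c : Fˣ}, c ≠ 1 → (c : F) ∉ List.replicate (k + 1) (1 : F) := fun hc h =>
    hc (Units.ext (List.eq_of_mem_replicate h))
  have i1 := t1 ▸ irr_cons (n1 hb)
  have i2 := t2 ▸ irr_cons (n1 (inv_ne_one.2 hb))
  set x := m.tor a * φ (embSL (Fin.succEmb (k + 1)) M) with hx
  have hx' : x⁻¹ = (m.tor a)⁻¹ * φ (embSL (Fin.succEmb (k + 1)) M⁻¹) := by
    rw [hx, (c0 M).mul_inv, map_inv, map_inv]
  have cl : ∀ χ, χ = fn T.ψ ∨ χ = -fn T.ψ → ∀ y, y = x ∨ y = x⁻¹ → ∀ P, ∀ u ∈ X.U {r | 0 < χ (rtv r)},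
      IsConj y (u * (φ P * y * (φ P)⁻¹)) ∧ IsConj y (φ P * y * (φ P)⁻¹ * u) := fun χ hχ y hy P u hu => by
    have h1 : x ∈ _ := mul_mem (X.H_le_normalizer_U _ (m.tor_mem_H a)) (T.norm hφ hχ _)
    have h2 : ∀ u ∈ X.U {r | 0 < χ (rtv r)}, Commute x u → u = 1 := fun u hu h => by
      have h3 : x ^ Nat.card F ^ N = m.tor a := by
        rw [hx, (c0 M).mul_pow, ← map_pow, ← map_pow, ← map_pow, t3, map_one, map_one, mul_one]
        congr 1
        funext i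
        exact Units.ext (by simpa using FiniteField.pow_card_pow N (a i : F))
      have h4 := (f.c.U_inf_cj m (nilp_pos χ) a).le ⟨hu, m.mem_cj_fix.2 (h3 ▸ h.pow_left _).mul_inv_cancel⟩
      rwa [Set.eq_empty_of_forall_notMem (s := {r | _ ∧ _}) fun r hr => ?_, Sys.U_empty, Subgroup.mem_bot] at h4
      have := T.hy r fun e => by rcases hχ with rfl | rfl <;> simpa [fn_apply, e] using hr.1
      exact hζ _ this.1 this.2 (h0 r ▸ hr.2)
    have h3 : y ∈ Subgroup.normalizer (X.U {r | 0 < χ (rtv r)} : Set G) := by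
      rcases hy with rfl | rfl; exacts [h1, inv_mem h1]
    have h4 : ∀ u ∈ X.U {r | 0 < χ (rtv r)}, y * u * y⁻¹ = u → u = 1 := fun u hu e => h2 u hu (by
      have : Commute y u := mul_inv_eq_iff_eq_mul.1 e
      rcases hy with rfl | rfl; exacts [this, Commute.inv_left_iff.1 this])
    have h5 := Sys.conj_mem_of_norm' (T.norm hφ hχ P) hu
    exact ⟨(G2C.isConj_mul' h3 h4 h5).trans (isConj_iff.2 ⟨φ P, by group⟩),
      (G2C.isConj_mul h3 h4 h5).trans (isConj_iff.2 ⟨φ P, by group⟩)⟩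
  refine ⟨x, ?_, fun g hg => ?_⟩
  · obtain ⟨P, hP⟩ := cls φ hc i1 (t1.trans t4.symm)
    have z1 : m.tor (wt w a * a) ∈ Subgroup.center G := m.center_eq f.c f.top ▸ ⟨_, mem_zker.2 fun j => by
      rw [chi_mul, ← smul_inv_smul w (sm j), chi_wt, h0, h0, w1]; simp, rfl⟩
    refine ⟨_, inv_mem z1, isConj_iff.2 ⟨(φ P)⁻¹ * n, ?_⟩⟩
    calc _ = (φ P)⁻¹ * ((n * φ (embSL (Fin.succEmb (k + 1)) M) * n⁻¹)⁻¹ * (n * m.tor a * n⁻¹)⁻¹) * φ P := by
          rw [hx]; group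
      _ = (φ P)⁻¹ * (φ (embSL (Fin.succEmb (k + 1)) M') * m.tor a) * ((m.tor (wt w a * a))⁻¹ * φ P) := by
          rw [b3, m.conj_wt hn, map_mul]; group
      _ = _ := by
          rw [← (c0 M').eq, ← hP, ← Subgroup.mem_center_iff.1 (inv_mem z1), ← Subgroup.mem_center_iff.1 (inv_mem z1), ← hx]
          group
  obtain ⟨v, hv, u, hu, e⟩ := eg m f.c f.top hg
  obtain ⟨v1, h1, v2, h2, rfl⟩ := Sys.exists_mul nilp_Neg {r | T.ψ ⬝ᵥ rtv r ≠ 0} hv
  obtain ⟨u1, h3, u2, h4, rfl⟩ := Sys.exists_mul nilp_Pos {r | T.ψ ⬝ᵥ rtv r = 0} hu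
  obtain ⟨A1, rfl, a1⟩ := T.levi hφ nilp_Neg (fun r hr => ⟨hr.1, not_not.1 hr.2⟩) h2
  obtain ⟨A2, a2, a3⟩ := T.levi hφ nilp_Pos (fun r hr => hr) (inv_mem h3)
  obtain ⟨P, Q, e1⟩ : ∃ P Q, φ (A1 * A2⁻¹) = (φ P * x * (φ P)⁻¹) * (φ Q * x⁻¹ * (φ Q)⁻¹) := by
    by_cases hs : ∀ c : F, (A1 * A2⁻¹).1 ≠ c • 1
    swap
    · push Not at hs
      obtain ⟨c, hs⟩ := hs
      have h5 : (A1 * A2⁻¹).1 * A2.1 = A1.1 := congrArg Subtype.val (inv_mul_cancel_right A1 A2)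
      have h6 := congrFun (congrFun h5 0) 0
      rw [hs, smul_mul_assoc, one_mul, Matrix.smul_apply, a1, a3, smul_eq_mul, mul_one] at h6
      rw [h6, one_smul] at hs
      exact ⟨1, 1, by rw [show A1 * A2⁻¹ = 1 from Subtype.ext hs]; simp⟩
    generalize A1 * A2⁻¹ = A at hs
    obtain ⟨Z, Y, e2, e3, e4⟩ := ThC.lev (by simp) hs (pl_monic (List.replicate (k + 1) 1))
      (pl_monic (((b⁻¹ : Fˣ) : F) :: List.replicate (k + 1) (1 : F))) (by simp [pl_deg]) (by simp [pl_deg]) (pl_eval (n1 hb))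
      (by simp [dt_pl])
    rw [← gdeg_cons (n1 hb)] at e3
    obtain ⟨S1, s1⟩ : ∃ S : SL(k + 2, F), (dg _ b).1 * S.1 = Z := ⟨⟨(dg _ b⁻¹).1 * Z, by
      simp [dg_det, det_of_ty e3]⟩, Units.mul_inv_cancel_left (dg _ b) _⟩
    obtain ⟨S2, s2⟩ : ∃ S : SL(k + 2, F), (dg _ b⁻¹).1 * S.1 = Y := ⟨⟨(dg _ b).1 * Y, by
      rw [det_mul, det_of_ty e4]; simp [dg_det]⟩, Units.inv_mul_cancel_left (dg _ b) _⟩
    obtain ⟨P, hP⟩ := cls φ hc i1 (t1.trans (s1 ▸ e3).symm)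
    obtain ⟨Q, hQ⟩ := cls φ hc' i2 (t2.trans (s2 ▸ e4).symm)
    refine ⟨P, Q, ?_⟩
    rw [hx', hP, hQ, ← mul_assoc, hc S1 (A * S2⁻¹), map_mul, map_inv, inv_mul_cancel_right]
    rw [map_mul, map_inv, eq_mul_inv_iff_mul_eq, mul_assoc, dg_inv]
    exact Units.ext (by rw [← s1, ← s2] at e2; exact e2.symm)
  refine ⟨_, _, (cl _ (.inr rfl) _ (.inl rfl) P v1 (X.U_mono (fun r hr => ?_) h1)).1,
    (cl _ (.inl rfl) _ (.inr rfl) Q u2 (X.U_mono (fun r hr => ?_) h4)).2, ?_⟩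
  · have := T.dom _ (pos_ng_iff.2 hr.1)
    simpa [fn_apply] using lt_of_le_of_ne (by simpa using this) hr.2
  · simpa [fn_apply] using lt_of_le_of_ne (T.dom _ hr.1) (Ne.symm hr.2)
  · rwa [mul_assoc v1, ← mul_assoc _ _ u2, ← e1, map_mul, map_inv, a2, inv_inv, mul_assoc, ← mul_assoc v1]

omit hφ in
include T in
theorem sq [Fintype F] [Finite G] [Conn D] (hF : 9 ≤ Fintype.card F) (f : Full X) {G' : Type*} [Group G']
    (e : G' ≃* G ⧸ Subgroup.center G) : ∃ c : G', ∀ g : G', ∃ a b : G', g = (a * c * a⁻¹) * (b * c * b⁻¹) := by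
  obtain ⟨x, h1, h2⟩ := T.main hF f
  exact sq_of (e.symm.toMonoidHom.comp (QuotientGroup.mk' _)) (e.symm.surjective.comp (QuotientGroup.mk'_surjective _))
    (fun z hz => by simpa using hz) h1 h2

end TA

end Cfsg.Agent.ThC
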